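import Cfsg.Agent.H48.DP3Spec

/-! Tower DP3 (S3275, chapter 3): the normal closure `U` is abelian. -/

set_option autoImplicit false
set_option linter.unusedSectionVars false
open Subgroup Cfsg H98 H97 H48.DP
open scoped commutatorElement

namespace H71.DPN

variable {G : Type*} [Group G]

theorem out2 {A B H : Subgroup G} {a b : G} (ha : a ∈ H) (hb : b ∈ H) (h1 : a ∉ A) (h2 : b ∉ B) :
    ∃ u ∈ H, u ∉ A ∧ u ∉ B := by
  by_cases h3 : a ∈ B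
  · by_cases h4 : b ∈ A
    · exact ⟨a * b, mul_mem ha hb, fun h => h1 ((mul_mem_cancel_right h4).1 h),
        fun h => h2 ((mul_mem_cancel_left h3).1 h)⟩
    · exact ⟨b, hb, h4, h2⟩
  · exact ⟨a, ha, h1, h3⟩

theorem zp2 {z x : G} (h : z * z = 1) (hx : x ∈ zpowers z) : x = 1 ∨ x = z := by
  obtain ⟨k, rfl⟩ := hx
  have h2 : z ^ (2 : ℤ) = 1 := by rw [zpow_two, h]
  show z ^ k = 1 ∨ z ^ k = z
  rcases Int.even_or_odd' k with ⟨j, rfl | rfl⟩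
  · left; rw [zpow_mul, h2, one_zpow]
  · right; rw [zpow_add, zpow_mul, h2, one_zpow, one_mul, zpow_one]

theorem m1 {g x : G} : g ∈ C1 x ↔ g * x = x * g := mem_centralizer_singleton_iff

theorem m1' {g x : G} : g ∈ C1 x ↔ ⁅g, x⁆ = 1 := m1.trans commutatorElement_eq_one_iff_mul_comm.symm

theorem zp_inv {z a b : G} (h : ⁅a, b⁆ ∈ zpowers z) : ⁅b, a⁆ ∈ zpowers z := by
  rw [← commutatorElement_inv]; exact inv_mem h

theorem rel_card (H K : Subgroup G) : H.relIndex K * Nat.card ↥(K ⊓ H) = Nat.card K := by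
  rw [← index_mul_card (H.subgroupOf K), relIndex, ← inf_subgroupOf_left,
    Nat.card_congr (subgroupOfEquivOfLe inf_le_left).toEquiv]

variable [Finite G]

theorem two_le {H K : Subgroup G} (h : H < K) : 2 * Nat.card H ≤ Nat.card K := by
  have h1 := rel_card H K
  rw [inf_eq_right.2 h.le] at h1
  have h2 : H.relIndex K ≠ 1 := fun e => h.not_ge (relIndex_eq_one.1 e)
  have h3 : H.relIndex K ≠ 0 := fun e => by
    rw [e, zero_mul] at h1
    exact Nat.card_pos.ne h1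
  exact h1 ▸ Nat.mul_le_mul_right _ (by omega)

theorem half {A : Subgroup G} {v b : G} (hv : v * v = 1) (hA : A ≤ C1 v)
    (h : ∀ a ∈ A, ⁅a, b⁆ ∈ zpowers v) : Nat.card A ≤ 2 * Nat.card ↥(A ⊓ C1 b) := by
  let φ : A →* zpowers v := MonoidHom.mk' (fun a => ⟨⁅(a : G), b⁆, h a a.2⟩) fun a c => Subtype.ext (by
    have h1 : Commute (a : G) ⁅(c : G), b⁆ := by
      obtain ⟨k, hk⟩ := h c c.2
      exact hk ▸ (show Commute (a : G) v from m1.1 (hA a.2)).zpow_right k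
    show ⁅(a : G) * c, b⁆ = ⁅(a : G), b⁆ * ⁅(c : G), b⁆
    obtain ⟨k, hk⟩ := h c c.2
    obtain ⟨l, hl⟩ := h a a.2
    rw [show ⁅(a : G) * c, b⁆ = a * ⁅(c : G), b⁆ * (a : G)⁻¹ * ⁅(a : G), b⁆ by
      simp [commutatorElement_def, mul_assoc], h1.eq, mul_inv_cancel_right, ← hk, ← hl]
    exact zpow_mul_comm v k l)
  have e : (C1 b).subgroupOf A = φ.ker := Subgroup.ext fun a => by
    rw [mem_subgroupOf, m1', MonoidHom.mem_ker, Subtype.ext_iff]; rfl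
  rw [← rel_card (C1 b) A, relIndex, e, index_ker]
  refine Nat.mul_le_mul_right _ ((card_le_card_group _).trans ?_)
  rw [Nat.card_zpowers]
  exact Nat.le_of_dvd two_pos (orderOf_dvd_of_pow_eq_one (by rw [pow_two, hv]))

/-- a pairing into a group of order two -/
theorem pair {A B : Subgroup G} {v : G} (hv : v * v = 1) (hA : A ≤ C1 v)
    (h : ∀ a ∈ A, ∀ b ∈ B, ⁅a, b⁆ ∈ zpowers v) (B1 : Subgroup G) : B1 ≤ B →
    Nat.card ↥(A ⊓ Ce B1) * Nat.card B1 ≤ Nat.card ↥(A ⊓ Ce B) * Nat.card B := by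
  induction B1 using WellFoundedGT.induction with | ind B1 ih =>
  intro h1
  rcases h1.eq_or_lt with rfl | h2
  · exact le_rfl
  obtain ⟨b, hb, h3⟩ := SetLike.exists_of_lt h2
  have h4 : B1 < B1 ⊔ zpowers b :=
    lt_of_le_of_ne le_sup_left fun e => h3 (e ▸ mem_sup_right (mem_zpowers b))
  have h5 := half hv (inf_le_left.trans hA : A ⊓ Ce B1 ≤ _) fun a ha => h a ha.1 b hb
  have h6 : A ⊓ Ce B1 ⊓ C1 b ≤ A ⊓ Ce (B1 ⊔ zpowers b) := fun a ha => ⟨ha.1.1, by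
    refine le_centralizer_iff.1 (sup_le (le_centralizer_iff.1 (zpowers_le.2 ha.1.2))
      (zpowers_le.2 ?_)) (mem_zpowers a)
    exact le_centralizer_iff.1 (zpowers_le.2 (by
      rintro _ ⟨k, rfl⟩
      exact ((show Commute a b from m1.1 ha.2).zpow_right k).symm)) (mem_zpowers b)⟩
  calc _ ≤ 2 * Nat.card ↥(A ⊓ Ce (B1 ⊔ zpowers b)) * Nat.card B1 :=
        Nat.mul_le_mul_right _ (h5.trans (Nat.mul_le_mul_left _ (card_le_of_le h6)))
    _ = Nat.card ↥(A ⊓ Ce (B1 ⊔ zpowers b)) * (2 * Nat.card B1) := by ring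
    _ ≤ _ := (Nat.mul_le_mul_left _ (two_le h4)).trans (ih _ h4 (sup_le h1 (zpowers_le.2 hb)))

theorem odd_mem {T P R L K : Subgroup G} (h : LT T P R L) (hK : L ≤ No K) {a x : G} (h1 : a ∈ K)
    (h2 : a ∈ L) (h3 : a ∉ O2 L) (hx : x ∈ L) (ho : orderOf x = 3) : x ∈ K := by
  have n : L ≤ No (K ⊓ L) := le_normalizer_inf hK le_normalizer
  have e := (h.simple (K ⊓ L ⊔ O2 L) le_sup_right (sup_le inf_le_right (pCoreOf_le L))
    (le_normalizer_sup n (self_le_normalizer_pCoreOf L))).resolve_left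
    fun e => h3 (e ▸ mem_sup_left ⟨h1, h2⟩)
  obtain ⟨m, hm, q, hq, rfl⟩ := (mem_sup_right_norm ((pCoreOf_le L).trans n)).1 (e.ge hx)
  have h4 : ∀ k : ℕ, (m * q) ^ k * (q ^ k)⁻¹ ∈ K ⊓ L := fun k => by
    induction k with
    | zero => simp
    | succ k ih =>
      rw [show (m * q) ^ (k + 1) * (q ^ (k + 1))⁻¹ = m * q * ((m * q) ^ k * (q ^ k)⁻¹) * (m * q)⁻¹ * m by
        rw [pow_succ', pow_succ']; group]
      exact mul_mem (conj_mem_of_mem_normalizer (n hx) ih) hm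
  obtain ⟨k, hk⟩ := isPGroup_iff_forall.1 (isPGroup_pCoreOf (p := 2) L) q hq
  have h5 := h4 (2 ^ k)
  rw [hk, inv_one, mul_one] at h5
  exact mem_of_pow_mem_of_coprime h5.1 (by rw [ho]; exact Nat.Coprime.pow_right k (by decide))

variable {T P₁ P₂ P₃ L D U : Subgroup G} {z v : G} (h : Geo T P₁ P₂ P₃ L D U z v)
include h

theorem QT : O2 L ≤ T := h.lt.h1.le.trans (isSyl_of_not_dvd_relIndex h.lt.h1.s3.le h.lt.h1.s3.two
  (by rw [h.lt.h1.s3.idx]; decide)).pCoreOf_le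

theorem Uz : U ≤ C1 z := h.UQ.trans ((pCoreOf_le L).trans h.cz)

theorem DU : D ≤ U := h.eqU ▸ le_ncl L D

theorem zU : z ∈ U := DU h ((h.memD z).2 (by simp))

theorem vU : v ∈ U := DU h ((h.memD v).2 (by simp))

theorem cD {a : G} (h1 : a ∈ C1 z) (h2 : a ∈ C1 v) : a ∈ Ce D := fun d hd => by
  rcases (h.memD d).1 hd with rfl | rfl | rfl | rfl
  exacts [by simp, (m1.1 h1).symm, (m1.1 h2).symm, ((show Commute a z from m1.1 h1).mul_right (m1.1 h2)).symm]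

/-- the centraliser of `v` in `U` is not abelian -/
theorem nab {w : G} (hw : w ∈ U) (hv : w ∉ C1 v) (hc : ∀ a ∈ U ⊓ C1 v, ∀ b ∈ U ⊓ C1 v, a * b = b * a) :
    False := by
  have LU : L ≤ No U := h.cz.trans h.nU
  have TL : T ≤ L := h.lt.h1.s3.le.trans h.lt.h1.leL
  have LZ : L ≤ No (U ⊓ Ce U) := le_normalizer_inf LU (le_normalizer_centralizer LU)
  have zZ : zpowers z ≤ U ⊓ Ce U := zpowers_le.2 ⟨zU h, fun a ha => m1.1 (Uz h ha)⟩
  have two : ∀ a ∈ U, ∀ b ∈ U, ∀ c ∈ U, a ∉ C1 c → b ∉ C1 c → a * b ∈ C1 c := fun a ha b hb c hc h1 h2 => by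
    have e1 := (zp2 h.zz (h.com a (h.UQ ha) c hc)).resolve_left fun e => h1 (m1'.2 e)
    have e2 := (zp2 h.zz (h.com b (h.UQ hb) c hc)).resolve_left fun e => h2 (m1'.2 e)
    rw [m1', show ⁅a * b, c⁆ = a * ⁅b, c⁆ * a⁻¹ * ⁅a, c⁆ by simp [commutatorElement_def, mul_assoc],
      e1, e2, m1.1 (Uz h ha), mul_inv_cancel_right, h.zz]
  have cen : ∀ c ∈ U ⊓ C1 v, c ∈ C1 w → c ∈ U ⊓ Ce U := fun c h1 h2 => ⟨h1.1, fun a ha => by
    by_cases h3 : a ∈ C1 v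
    · exact hc a ⟨ha, h3⟩ c h1
    · have h4 : Commute (a * w) c := hc _ ⟨mul_mem ha hw, two a ha w hw v (vU h) h3 hv⟩ c h1
      simpa using (h4.mul_left (show Commute c w from m1.1 h2).symm.inv_left).eq⟩
  obtain ⟨-, -, -, -, s₁, t1, s₂, t2, -, -, n1, n2, -⟩ := h.lt.h1.nrm
  obtain ⟨u, hu, n3, n4⟩ := out2 t1 t2 n1 n2
  have uU := LU (TL hu)
  have uZ := LZ (TL hu)
  have uv : ⁅u, v⁆ ∈ U ⊓ Ce U := zZ (zp_inv (h.vT u hu))
  have fix : ∀ c ∈ U ⊓ C1 v, u * c * u⁻¹ * c⁻¹ ∈ U ⊓ Ce U := fun c h1 => by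
    by_cases h2 : c ∈ C1 w
    · exact mul_mem (conj_mem_of_mem_normalizer uZ (cen c h1 h2)) (inv_mem (cen c h1 h2))
    have h3 := cen (v * c) (mul_mem ⟨vU h, m1.2 rfl⟩ h1)
      (two v (vU h) c h1.1 w hw (fun e => hv (m1.2 (m1.1 e).symm)) h2)
    have h4 : v⁻¹ = v := inv_eq_of_mul_eq_one_right h.vv
    rw [show u * c * u⁻¹ * c⁻¹ = ⁅u, v⁻¹⁆ * (v⁻¹ * (u * (v * c) * u⁻¹ * (v * c)⁻¹) * v) by
      simp [commutatorElement_def, mul_assoc], h4]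
    refine mul_mem uv ?_
    have h5 := mul_mem (conj_mem_of_mem_normalizer uZ h3) (inv_mem h3)
    rwa [h5.2 v (vU h), mul_assoc, h.vv, mul_one]
  have uC : ∀ a ∈ U, (u * a * u⁻¹ ∈ C1 v ↔ a ∈ C1 v) := fun a ha => by
    have h1 := zZ (h.vT u⁻¹ (inv_mem hu))
    have h2 : Commute a ⁅v, u⁻¹⁆ := h1.2 a ha
    rw [m1, m1]
    refine ⟨fun e => ?_, fun e => ?_⟩
    · have h3 : Commute a (u⁻¹ * v * u) := by simpa [mul_assoc] using Commute.map e (MulAut.conj u⁻¹)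
      have h4 := (h2.mul_right h3).eq
      simpa [commutatorElement_def, mul_assoc] using h4
    · have h4 := ((h2.inv_right.mul_right e).map (MulAut.conj u)).eq
      simpa [commutatorElement_def, mul_assoc] using h4
  have uu : u * u ∈ stab U (U ⊓ Ce U) := ⟨mul_mem uZ uZ, fun a ha => by
    have h1 := conj_mem_of_mem_normalizer uU ha
    have h2 : u * a * u⁻¹ * a⁻¹ ∈ U ⊓ C1 v := mem_inf.2 ⟨mul_mem h1 (inv_mem ha), by
      by_cases h3 : a ∈ C1 v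
      · exact mul_mem ((uC a ha).2 h3) (inv_mem h3)
      · exact two _ h1 _ (inv_mem ha) v (vU h) (fun e => h3 ((uC a ha).1 e)) fun e => h3 (inv_mem_iff.1 e)⟩
    have h3 := mul_mem (fix _ h2) (zZ (h.sqU _ h2.1))
    rw [← commutatorElement_inv, inv_mem_iff]
    simpa [commutatorElement_def, mul_assoc] using h3⟩
  obtain ⟨x, hx, ho, h1⟩ := h.ln1
  have h2 := odd_mem h.lt (le_normalizer_stab LU LZ) uu (TL (mul_mem hu hu)) (h.lt.sq u hu n3 n4)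
    (h.lt.h1.leL hx) ho
  have h3 := h2.2 v (vU h)
  have h4 := (pow_mem h2 2).2 v (vU h)
  have h5 : v⁻¹ = v := inv_eq_of_mul_eq_one_right h.vv
  rw [commutatorElement_def, h5, mul_assoc, mul_assoc, ← mul_assoc x] at h3
  rw [commutatorElement_def, h5, mul_assoc, mul_assoc, ← mul_assoc (x ^ 2)] at h4
  have h6 := (mul_mem_cancel_left h3).1 (zZ h1)
  have h7 := mul_mem h4 (inv_mem h6)
  rw [mul_inv_cancel_right] at h7
  exact hv (m1.2 (h7.2 w hw))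

end H71.DPN

open H71.DPN in
theorem H71.DPN.jobNab.{u} : JobNab.{u} := by
  intro G _ _ T P₁ P₂ P₃ L D U z v h fr
  by_cases h0 : U ≤ C1 v
  · conv_lhs => rw [h.eqU]
    exact ncl_le (le_centralizer_iff.1 fun a ha => cD h (Uz h ha) (h0 ha))
      (le_normalizer_centralizer (h.cz.trans h.nU))
  exfalso
  obtain ⟨w, hw, hv⟩ := SetLike.not_le_iff_exists.1 h0
  obtain ⟨τ, hτ, e1, e2⟩ := h.swap
  have e3 : τ⁻¹ * z * τ⁻¹⁻¹ = v := by rw [← e2]; group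
  have tt : τ * τ ∈ No U := h.nU (m1.2 (mul_inv_eq_iff_eq_mul.1 (by
    conv_rhs => rw [← e2, ← e1]
    group)))
  have c1 : Nat.card U ≤ 2 * Nat.card ↥(U ⊓ C1 v) :=
    half h.zz (Uz h) fun a ha => h.com a (h.UQ ha) v (vU h)
  have c2 : 2 * Nat.card ↥(U ⊓ C1 v) ≤ Nat.card U :=
    two_le (lt_of_le_of_ne inf_le_left fun e => h0 (e.ge.trans inf_le_right))
  set Y0 := cj τ (U ⊓ C1 v) with hY
  have YT : Y0 ≤ T := (cj_le_of_le (H := U ⊓ C1 v) (K := O2 P₃) (fun a ha => h.cD.le ⟨QT h (h.UQ ha.1),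
    cD h (Uz h ha.1) ha.2⟩) (self_le_normalizer_pCoreOf P₃ hτ)).trans (h.cD.ge.trans inf_le_left)
  have Yz : Y0 ≤ C1 z := by
    rintro _ ⟨a, ha, rfl⟩
    exact m1.2 (e2 ▸ (Commute.map (m1.1 ha.2) (MulAut.conj τ)).eq)
  have c3 := rel_card (O2 L) Y0
  have c4 : Nat.card Y0 = Nat.card ↥(U ⊓ C1 v) := card_cj _ _
  have X1 : cj τ⁻¹ (Y0 ⊓ O2 L) ≤ U ⊓ C1 v := (cj_mono _ inf_le_left).trans (cj_inv_cj _ _).le
  have pv : ∀ a ∈ cj τ⁻¹ (Y0 ⊓ O2 L), ∀ b ∈ cj τ U, ⁅a, b⁆ ∈ zpowers v := by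
    rintro _ ⟨a, ha, rfl⟩ _ ⟨b, hb, rfl⟩
    obtain ⟨k, hk⟩ := h.com a ha.2 _ (conj_mem_of_mem_normalizer tt hb)
    refine ⟨k, ?_⟩
    show v ^ k = ⁅τ⁻¹ * a * τ⁻¹⁻¹, τ * b * τ⁻¹⁆
    rw [← e3, conj_zpow, show z ^ k = _ from hk]
    simp [commutatorElement_def, mul_assoc]
  have c5 := pair h.vv (X1.trans inf_le_right) pv (Y0 ⊓ O2 L)
    (inf_le_left.trans (cj_mono _ inf_le_left))
  have cc : cj τ⁻¹ (Y0 ⊓ O2 L) ≤ Ce (Y0 ⊓ O2 L) := fun a ha b hb => by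
    have h1 := zp2 h.zz (h.com b hb.2 a (X1 ha).1)
    have h2 := zp2 h.vv (zp_inv (pv a ha b (cj_mono _ inf_le_left hb.1)))
    refine commutatorElement_eq_one_iff_mul_comm.1 (h1.elim id fun h1 => h2.elim id fun h2 => ?_)
    exact (h.vne (h2 ▸ h1 ▸ mem_zpowers _)).elim
  rw [inf_eq_left.2 cc, card_cj, card_cj] at c5
  have c6 : Nat.card ↥(cj τ⁻¹ (Y0 ⊓ O2 L) ⊓ Ce (cj τ U)) ≤ Nat.card ↥(U ⊓ Ce (cj τ U)) :=
    card_le_of_le (inf_le_inf_right _ (X1.trans inf_le_left))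
  set E := U ⊓ Ce (cj τ U) with hE
  have zE : z ∉ E := fun e => hv (m1.2 (by
    have h1 := e.2 _ (conj_mem_cj hw)
    rw [← e2] at h1
    simp only [mul_assoc, inv_mul_cancel_left, mul_right_inj] at h1
    simpa [← mul_assoc] using h1))
  have c7 := two_le (lt_of_le_of_ne (le_sup_left : E ≤ E ⊔ zpowers z)
    fun e => zE (e ▸ mem_sup_right (mem_zpowers z)))
  have nz : C1 z ≤ No (zpowers z) := le_normalizer_of_le_centralizer fun a ha => by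
    rintro _ ⟨k, rfl⟩
    exact ((show Commute a z from m1.1 ha).zpow_right k).symm
  have c8 : Nat.card ↥(E ⊔ zpowers z) ≤ Nat.card ↥(U ⊓ stab Y0 (zpowers z)) := card_le_of_le (sup_le
    (fun a ha => ⟨ha.1, nz (Uz h ha.1), fun c hc => by
      rw [commutatorElement_eq_one_iff_mul_comm.2 (ha.2 c (cj_mono _ inf_le_left hc))]
      exact one_mem _⟩)
    (zpowers_le.2 ⟨zU h, nz (m1.2 rfl), fun c hc => by rw [m1'.1 (Yz hc)]; exact one_mem _⟩))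
  have c9 := rel_card (stab Y0 (zpowers z)) U
  have pU : 0 < Nat.card U := Nat.card_pos
  have pE : 0 < Nat.card E := Nat.card_pos
  obtain ⟨f1, f2⟩ := fr Y0 YT
  have key : Nat.card U ≤ 4 * (O2 L).relIndex Y0 ^ 2 * Nat.card E := Nat.le_of_mul_le_mul_left (by
    calc _ ≤ (2 * Nat.card Y0) * (2 * Nat.card Y0) := by rw [c4]; exact Nat.mul_le_mul c1 c1
      _ = 4 * (O2 L).relIndex Y0 ^ 2 * (Nat.card ↥(Y0 ⊓ O2 L) * Nat.card ↥(Y0 ⊓ O2 L)) := by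
        rw [← c3]; ring
      _ ≤ 4 * (O2 L).relIndex Y0 ^ 2 * (Nat.card E * Nat.card U) :=
        Nat.mul_le_mul_left _ (c5.trans (Nat.mul_le_mul_right _ c6))
      _ = _ := by ring) pU
  have bd : (stab Y0 (zpowers z)).relIndex U ≤ 2 * (O2 L).relIndex Y0 ^ 2 :=
    Nat.le_of_mul_le_mul_right (c := 2 * Nat.card E) (by
      calc _ ≤ Nat.card U := c9 ▸ Nat.mul_le_mul_left _ (c7.trans c8)
        _ ≤ _ := key.trans_eq (by ring)) (by omega)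
  by_cases hQ : Y0 ≤ O2 L
  · rw [relIndex_eq_one.2 hQ] at key
    have h1 : E ⊔ zpowers z ≤ U ⊓ C1 v := sup_le
      (fun a ha => ⟨ha.1, m1.2 (ha.2 v (e1 ▸ conj_mem_cj (zU h))).symm⟩)
      (zpowers_le.2 ⟨zU h, m1.2 h.zv⟩)
    have h2 := eq_of_le_of_card_ge h1 (by omega)
    have h3 : E ≤ Ce E := fun a ha b hb => commutatorElement_eq_one_iff_mul_comm.1
      ((zp2 h.zz (h.com b (h.UQ hb.1) a ha.1)).resolve_right fun e => zE (e ▸ mul_mem (mul_mem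
        (mul_mem hb ha) (inv_mem hb)) (inv_mem ha)))
    have h4 : ∀ X ≤ C1 z, zpowers z ≤ Ce X := fun X hX => zpowers_le.2 fun a ha => m1.1 (hX ha)
    have h5 : E ⊔ zpowers z ≤ Ce (E ⊔ zpowers z) := sup_le
      (le_centralizer_iff.1 (sup_le h3 (h4 E (inf_le_left.trans (Uz h)))))
      (h4 _ (h1.trans (inf_le_left.trans (Uz h))))
    exact nab h hw hv fun a ha b hb => h5 (h2.ge hb) a (h2.ge ha)
  have h1 : Y0 ≤ O2 P₁ ∨ Y0 ≤ O2 P₂ := by
    by_contra hn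
    obtain ⟨a, ha, n1⟩ := SetLike.not_le_iff_exists.1 (not_or.1 hn).1
    obtain ⟨b, hb, n2⟩ := SetLike.not_le_iff_exists.1 (not_or.1 hn).2
    obtain ⟨_, ⟨c, hc, rfl⟩, n3, n4⟩ := out2 ha hb n1 n2
    refine h.lt.sq _ (YT ⟨c, hc, rfl⟩) n3 n4 ?_
    obtain ⟨k, hk⟩ := h.sqU c hc.1
    rw [← map_mul, ← show z ^ k = _ from hk, map_zpow]
    exact zpow_mem (show τ * z * τ⁻¹ ∈ _ from e1 ▸ h.UQ (vU h)) k
  have h2 : (O2 L).relIndex Y0 ≤ 4 := by
    rcases h1 with h1 | h1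
    · exact h.lt.h1.idx ▸ relIndex_le_of_le_right h1 (by rw [h.lt.h1.idx]; decide)
    · exact h.lt.h2.idx ▸ relIndex_le_of_le_right h1 (by rw [h.lt.h2.idx]; decide)
  have h3 : (O2 L).relIndex Y0 ≠ 3 := fun e => by
    obtain ⟨k, hk⟩ := IsPGroup.iff_card.1 (h.s3.two.to_le YT)
    rw [e, hk] at c3
    exact absurd (Nat.prime_three.dvd_of_dvd_pow (c3 ▸ dvd_mul_right _ _)) (by decide)
  have h4 := f1 hQ
  generalize (O2 L).relIndex Y0 = m at *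
  interval_cases m <;> omega
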