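import Cfsg.Agent.H36.E7MSpec

/-! E7MAX (S5934), slot RD: a root type and `L2(128).7` have no common proper overgroup. -/

set_option autoImplicit false

namespace H71.E7RD

open H36.E7M Module

theorem rho_rho (g h : G) (v : LA) : ρ g (ρ h v) = ρ (g * h) v := by rw [map_mul]; rfl

theorem inv_span (M : Subgroup G) : Inv M (spanE (D ∩ M)) := fun u hu v hv => by
  induction hv using Submodule.span_induction with
  | mem w hw =>
    obtain ⟨a, ha, h⟩ := hw
    exact Submodule.subset_span ⟨cj u a, ⟨D_cj u ha.1, cj_mem hu ha.2⟩, h.cj u⟩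
  | zero => rw [map_zero]; exact zero_mem _
  | add a b _ _ ha hb => rw [map_add]; exact add_mem ha hb
  | smul c a _ ha => rw [map_smul]; exact Submodule.smul_mem _ c ha

theorem jobRD : JobRD := by
  intro p a3 Y Y' hb hr hd M g hM hY hY'
  obtain ⟨m, m1, m2, m3⟩ := hr.mod
  have h1 : spanE (D ∩ Y) ≤ spanE (D ∩ M) :=
    Submodule.span_mono fun v ⟨a, ha, h⟩ => ⟨a, ⟨ha.1, hY ha.2⟩, h⟩
  have h2 : spanE (D ∩ M) ≤ m ⊔ fixS (orb Y) := Submodule.span_le.2 (by
    rintro v ⟨b, hb', w, rfl, rfl⟩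
    rcases (a3 Y M hb hr hY hM).2 _ hb'.2 hb'.1 with ⟨u, hu, e⟩ | h
    · refine Submodule.mem_sup_left ?_
      have := p.cze (u⁻¹ * w) (cj_eq_iff.1 (by rw [← cj_cj, e, cj_inv_cj]))
      rw [show w = u * (u⁻¹ * w) by group, ← rho_rho, this]
      exact m1 u hu _ m2
    · refine Submodule.mem_sup_right (mem_fixS.2 fun a ha => ?_)
      have h3 : Commute (cj w⁻¹ a) z := by
        rw [← commute_cj (g := w), cj_cj_inv]; exact h a ha
      rw [rho_rho, show a * w = w * cj w⁻¹ a by rw [cj_def]; group, ← rho_rho, p.cze _ h3])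
  have h3 : finrank F (spanE (D ∩ M)) ≤ 111 := by
    have := Submodule.finrank_mono h2
    have := Submodule.finrank_add_le_finrank_add_finrank m (fixS (orb Y))
    have := hb.fix
    omega
  have h4 : 22 ≤ finrank F (spanE (D ∩ M)) := hr.big.trans (Submodule.finrank_mono h1)
  have hi : Function.Injective (ρ g⁻¹) := fun a b e => by
    simpa [rho_rho] using congrArg (ρ g) e
  have h5 := (Submodule.equivMapOfInjective _ hi (spanE (D ∩ M))).finrank_eq
  have h6 := hd.irr ((spanE (D ∩ M)).map (ρ g⁻¹)) (by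
    rintro u hu _ ⟨s, hs, rfl⟩
    refine ⟨_, inv_span M (cj g u) (hY' (mem_cS.2 (by rwa [cj_inv_cj]))) s hs, ?_⟩
    rw [rho_rho, rho_rho, cj_def, show g⁻¹ * (g * u * g⁻¹) = u * g⁻¹ by group])
  omega

end H71.E7RD
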