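import Cfsg.Agent.H51.KLGeo
import Cfsg.Agent.H38.KLIdx

/-! Tower KL, slot LINE: the group induced on a line. -/

set_option autoImplicit false
set_option linter.unusedSectionVars false

namespace H71.KL

open Module Submodule H53.CK H51.KL
open H38.KL (inv_app app_inv inv_eq tr2 mem_Rl)

universe u v

section grp

variable {G : Type*} [Group G]

theorem relIndex_eq (K A : Subgroup G) :
    K.relIndex A = ((fun g : G => (g : G ⧸ K)) '' (A : Set G)).ncard := by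
  rw [Subgroup.relIndex, index_eq_ncard (K.subgroupOf A) (fun g : A => ((g : G) : G ⧸ K))
    fun g g' => QuotientGroup.eq]
  congr 1
  ext q
  exact ⟨fun ⟨g, e⟩ => ⟨g, g.2, e⟩, fun ⟨g, hg, e⟩ => ⟨⟨g, hg⟩, e⟩⟩

theorem relIndex_of_dc [Finite G] {P H B : Subgroup G} (hH : H ≤ P) (h : dc P H B = 1) :
    B.relIndex H = B.relIndex P := by
  rw [relIndex_eq, relIndex_eq]
  congr 1
  refine Set.Subset.antisymm (Set.image_mono hH) ?_
  rintro _ ⟨g, hg, rfl⟩
  obtain ⟨a, ha, b, hb, rfl⟩ := dc_eq_one.1 h g hg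
  exact ⟨a, ha, QuotientGroup.eq.2 (by simpa using hb)⟩

theorem sub_one_dvd [Finite G] {P H R : Subgroup G} (hH : H ≤ P) (hR : R ≤ H)
    (hn : ∀ p ∈ P, ∀ r ∈ R, p * r * p⁻¹ ∈ R) (h : dc P H H = 2) :
    H.relIndex P - 1 ∣ R.relIndex H := by
  have k : ∀ g, DC H H 1 g → g ∈ H := by
    rintro _ ⟨a, ha, b, hb, rfl⟩
    exact mul_mem (mul_mem ha (one_mem _)) hb
  obtain ⟨g, hg, hgH⟩ : ∃ g ∈ P, g ∉ H := by
    by_contra! hc
    have := dc_eq_one.2 fun g hg => ⟨g, hc g hg, 1, one_mem H, (mul_one g).symm⟩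
    omega
  have h2 : ∀ g' ∈ P, g' ∉ H → DC H H g g' := fun g' hg' hn' => by
    obtain ⟨i, j, hij, hd⟩ := exists_DC (S := P) (A := H) (B := H) (m := 3) (by omega) ![1, g, g']
      (fun i => by fin_cases i <;> simp [hg, hg', one_mem])
    fin_cases i <;> fin_cases j <;>
      first
      | exact absurd rfl hij | exact hd | exact hd.symm
      | exact absurd (k _ hd) hgH | exact absurd (k _ hd) hn'
      | exact absurd (k _ hd.symm) hgH | exact absurd (k _ hd.symm) hn'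
  have e1 := index_eq_ncard ((H.comap (MulAut.conj g⁻¹).toMonoidHom).subgroupOf H)
    (fun a : H => ((a * g : G) : G ⧸ H)) fun a b => by
      rw [QuotientGroup.eq, Subgroup.mem_subgroupOf, Subgroup.mem_comap]
      simp [mul_assoc]
  have e2 : (fun g : G => (g : G ⧸ H)) '' (P : Set G) =
      insert ((1 : G) : G ⧸ H) (Set.range fun a : H => ((a * g : G) : G ⧸ H)) := by
    ext q
    constructor
    · rintro ⟨g', hg', rfl⟩
      by_cases hc : g' ∈ H
      · exact .inl (QuotientGroup.eq.2 (by simpa using hc))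
      · obtain ⟨a, ha, b, hb, rfl⟩ := h2 g' hg' hc
        exact .inr ⟨⟨a, ha⟩, QuotientGroup.eq.2 (by simpa [mul_assoc] using hb)⟩
    · rintro (rfl | ⟨a, rfl⟩)
      exacts [⟨1, one_mem _, rfl⟩, ⟨_, mul_mem (hH a.2) hg, rfl⟩]
  rw [relIndex_eq, e2, Set.ncard_insert_of_notMem (by
    rintro ⟨a, e⟩
    have : ((a : G) * g)⁻¹ * 1 ∈ H := QuotientGroup.eq.1 e
    rw [mul_one, inv_mem_iff, mul_mem_cancel_left a.2] at this
    exact hgH this), Nat.add_sub_cancel, ← e1]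
  exact Subgroup.relIndex_dvd_of_le_left H fun r hr => hR (by
    simpa using hn _ (inv_mem hg) r hr)

end grp

variable {F : Type u} [Field F] {V : Type v} [AddCommGroup V] [Module F V]
  {S K : Subgroup (V ≃ₗ[F] V)} {x y : V} {g : V ≃ₗ[F] V}

theorem coef (h : Ind F x y) {a b c d : F} (e : a • y + b • x = c • y + d • x) : a = c ∧ b = d := by
  have h1 : a = c := by
    by_contra hc
    refine h.2 (mem_span_singleton.2 ⟨(d - b) / (a - c), ?_⟩)
    have h0 := sub_ne_zero.2 hc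
    refine smul_right_injective V h0 ?_
    change (a - c) • ((d - b) / (a - c)) • x = (a - c) • y
    rw [smul_smul, mul_div_cancel₀ _ h0]
    linear_combination (norm := module) -e
  subst h1
  exact ⟨rfl, smul_left_injective F h.1 (add_left_cancel e)⟩

theorem mem_line {v : V} : v ∈ span F {x, y} ↔ ∃ a b : F, v = a • y + b • x := by
  rw [mem_span_pair]
  exact ⟨fun ⟨a, b, e⟩ => ⟨b, a, by rw [← e, add_comm]⟩, fun ⟨a, b, e⟩ => ⟨b, a, by rw [e, add_comm]⟩⟩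

theorem xm : x ∈ span F ({x, y} : Set V) := subset_span (by simp)
theorem ym : y ∈ span F ({x, y} : Set V) := subset_span (by simp)

theorem inv_mul_app {k : V ≃ₗ[F] V} {v w : V} (h : g w = k v) : (g⁻¹ * k) v = w := inv_eq h

theorem tl_mul {c : Fˣ} (hc : c ∈ Cl K x y) {s : F} (hs : s ∈ Tl K x y) : c * s ∈ Tl K x y := by
  obtain ⟨g, hg, t, h1, h2⟩ := hc
  obtain ⟨k, hk, h3, h4⟩ := hs
  refine ⟨g⁻¹ * (k * g), mul_mem (inv_mem hg) (mul_mem hk hg), inv_mul_app ?_, inv_mul_app ?_⟩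
  · rw [LinearEquiv.mul_apply, h1, h3]
  · simp only [LinearEquiv.mul_apply, map_add, map_smul, h1, h2, h3, h4]
    module

theorem card_tl [Finite F] : ∃ t, Nat.card (Tl K x y) * t = Nat.card F ∧ Nat.card (Cl K x y) ∣ t - 1 := by
  let E : Subfield F :=
    { carrier := {e | ∀ s ∈ Tl K x y, e * s ∈ Tl K x y}
      mul_mem' := fun ha hb s hs => by rw [mul_assoc]; exact ha _ (hb s hs)
      one_mem' := fun s hs => by rwa [one_mul]
      add_mem' := fun ha hb s hs => by rw [add_mul]; exact add_mem (ha s hs) (hb s hs)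
      zero_mem' := fun s _ => by rw [zero_mul]; exact zero_mem _
      neg_mem' := fun ha s hs => by rw [neg_mul]; exact neg_mem (ha s hs)
      inv_mem' := fun e he s hs => by
        rcases eq_or_ne e 0 with rfl | h0
        · rw [inv_zero, zero_mul]; exact zero_mem _
        obtain ⟨r, hr⟩ := Finite.surjective_of_injective
          (f := fun r : Tl K x y => (⟨e * r, he r r.2⟩ : Tl K x y))
          (fun a b h => Subtype.ext (mul_left_cancel₀ h0 (congrArg Subtype.val h))) ⟨s, hs⟩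
        rw [← show e * r = s from congrArg Subtype.val hr, inv_mul_cancel_left₀ h0]
        exact r.2 }
  let T : Submodule E F := { Tl K x y with smul_mem' := fun e s hs => e.2 s hs }
  refine ⟨Nat.card (F ⧸ T), (Submodule.card_eq_card_quotient_mul_card T).symm, ?_⟩
  let ρ : Cl K x y →* E := ((Units.coeHom F).comp (Cl K x y).subtype).codRestrict E
    fun c _ hs => tl_mul c.2 hs
  have h1 := Subgroup.card_dvd_of_injective ρ.toHomUnits fun a b h =>
    Subtype.ext (Units.ext (congrArg (fun z : Eˣ => ((z : E) : F)) h))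
  rw [Nat.card_units] at h1
  rw [Module.natCard_eq_pow_finrank (K := E) (V := F ⧸ T)]
  exact h1.trans (Nat.sub_one_dvd_pow_sub_one _ _)

variable [FiniteDimensional F V] (hK : K ≤ S) (hs : Sc K)
include hK hs

theorem mem_Hl : g ∈ Hl S K x y ↔ g ∈ Ln S x y ∧ ∃ k ∈ K, ∀ v ∈ span F {x, y}, k v = g v := by
  have st : ∀ g ∈ Ln S x y, ∀ v ∈ span F {x, y}, g v ∈ span F ({x, y} : Set V) :=
    fun g hg v hv => (hg.2 v).2 hv
  let H' : Subgroup (V ≃ₗ[F] V) :=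
    { carrier := {g | g ∈ Ln S x y ∧ ∃ k ∈ K, ∀ v ∈ span F {x, y}, k v = g v}
      one_mem' := ⟨one_mem _, 1, one_mem _, fun _ _ => rfl⟩
      mul_mem' := fun {a b} ⟨ha, k, hk, h1⟩ ⟨hb, k', hk', h2⟩ => ⟨mul_mem ha hb, k * k',
        mul_mem hk hk', fun v hv => by
          rw [LinearEquiv.mul_apply, LinearEquiv.mul_apply, h2 v hv, h1 _ (st b hb v hv)]⟩
      inv_mem' := fun {a} ⟨ha, k, hk, h1⟩ => ⟨inv_mem ha, k⁻¹, inv_mem hk, fun v hv =>
        inv_eq (by rw [h1 _ (st _ (inv_mem ha) v hv), app_inv])⟩ }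
  refine ⟨fun h => (sup_le (fun k hk => ?_) (fun r hr => ?_) : _ ≤ H') h,
    fun ⟨hg, k, hk, h1⟩ => ?_⟩
  · exact ⟨hk.2, k, hk.1, fun _ _ => rfl⟩
  · obtain ⟨-, c, hc, h1⟩ := mem_Rl.1 hr
    obtain ⟨k, hk, h2⟩ := hs c hc
    exact ⟨Rl_le_Ln x y hr, k, hk, fun v hv => by rw [h1 v hv, h2]⟩
  · rw [← mul_inv_cancel_left k g]
    refine mul_mem (Subgroup.mem_sup_left ⟨hk, mem_Ln.2 ⟨hK hk, h1 x xm ▸ st g hg x xm,
      h1 y ym ▸ st g hg y ym⟩⟩) (Subgroup.mem_sup_right (mem_Rl.2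
        ⟨mul_mem (inv_mem (hK hk)) hg.1, 1, one_ne_zero, fun v hv => ?_⟩))
    rw [one_smul, LinearEquiv.mul_apply]
    exact inv_eq (h1 v hv)

theorem mem_Hl_of (hg : g ∈ K) (h1 : g x ∈ span F {x, y}) (h2 : g y ∈ span F {x, y}) :
    g ∈ Hl S K x y := Subgroup.mem_sup_left ⟨hg, mem_Ln.2 ⟨hK hg, h1, h2⟩⟩

theorem idx_B [Finite F] (h : Ind F x y) : (Rl S x y).relIndex (Hl S K x y ⊓ Fl S x y) =
    Nat.card (Tl K x y) * Nat.card (Cl K x y) := by
  obtain ⟨φ, hφ⟩ := H62.exists_dual_of_ne_zero (F := F) h.1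
  have m : ∀ g : V ≃ₗ[F] V, g ∈ Fl S x y → g x = φ (g x) • x ∧ φ (g x) ≠ 0 := fun g hg => by
    obtain ⟨c, hc⟩ := mem_span_singleton.1 (mem_Fl.1 hg).2.1
    have e : φ (g x) = c := by rw [← hc, map_smul, hφ, smul_eq_mul, mul_one]
    refine ⟨by rw [e, hc], fun h0 => h.1 (g.injective ?_)⟩
    rw [← hc, ← e, h0, zero_smul, map_zero]
  choose t0 ht0 using fun c : Cl K x y => (show ∃ t, ∃ g ∈ K, g x = x ∧
    g y = ((c : Fˣ) : F) • y + t • x from let ⟨g, hg, t, e⟩ := c.2; ⟨t, g, hg, e⟩)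
  let e : Tl K x y × Cl K x y → V := fun p => ((p.2 : Fˣ) : F) • y + (t0 p.2 + p.1) • x
  have he : Function.Injective e := fun p p' hp => by
    obtain ⟨h1, h2⟩ := coef h hp
    have h3 : p.2 = p'.2 := Subtype.ext (Units.ext h1)
    exact Prod.ext (Subtype.ext (add_left_cancel (h3 ▸ h2 :))) h3
  rw [Subgroup.relIndex, index_eq_ncard _
    (fun g : (Hl S K x y ⊓ Fl S x y : Subgroup _) => (φ (g.1 x))⁻¹ • g.1 y) fun g g' => ?_,
    ← Nat.card_prod, ← Nat.card_range_of_injective he, Nat.card_coe_set_eq]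
  · congr 1
    ext w
    constructor
    · rintro ⟨⟨g, hg, hf⟩, rfl⟩
      obtain ⟨-, k, hk, h1⟩ := (mem_Hl hK hs).1 hg
      obtain ⟨r, hr, h2⟩ := hs _ (inv_ne_zero (m g hf).2)
      obtain ⟨c, t, h3⟩ := mem_line.1 (smul_mem _ (φ (g x))⁻¹ (mem_Fl.1 hf).2.2)
      have h4 : (r * k) x = x := by
        rw [LinearEquiv.mul_apply, h2, h1 x xm]
        nth_rewrite 2 [(m g hf).1]
        rw [inv_smul_smul₀ (m g hf).2]
      have h5 : (r * k) y = c • y + t • x := by rw [LinearEquiv.mul_apply, h2, h1 y ym, h3]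
      have hc : c ≠ 0 := fun h0 => h.2 (mem_span_singleton.2 ⟨t, (r * k).injective (by
        rw [map_smul, h4, h5, h0, zero_smul, zero_add])⟩)
      let c' : Cl K x y := ⟨Units.mk0 c hc, r * k, mul_mem hr hk, t, h4, h5⟩
      obtain ⟨g0, hg0, h6, h7⟩ := ht0 c'
      refine ⟨(⟨t - t0 c', g0⁻¹ * (r * k), mul_mem (inv_mem hg0) (mul_mem hr hk),
        inv_mul_app (by rw [h6, h4]), inv_mul_app ?_⟩, c'), ?_⟩
      · rw [map_add, map_smul, h5, h6, h7]
        change c • y + t0 c' • x + _ = _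
        module
      · change c • y + (t0 c' + (t - t0 c')) • x = (φ (g x))⁻¹ • g y
        rw [h3, add_sub_cancel]
    · rintro ⟨⟨⟨s, k, hk, h1, h2⟩, c⟩, rfl⟩
      obtain ⟨g0, hg0, h6, h7⟩ := ht0 c
      have h3 : (g0 * k) x = x := by rw [LinearEquiv.mul_apply, h1, h6]
      have h4 : (g0 * k) y = ((c : Fˣ) : F) • y + (t0 c + s) • x := by
        rw [LinearEquiv.mul_apply, h2, map_add, map_smul, h6, h7]; module
      have h5 : (g0 * k) y ∈ span F ({x, y} : Set V) := mem_line.2 ⟨_, _, h4⟩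
      refine ⟨⟨g0 * k, mem_Hl_of hK hs (mul_mem hg0 hk) (h3.symm ▸ xm) h5,
        mem_Fl.2 ⟨hK (mul_mem hg0 hk), h3.symm ▸ mem_span_singleton_self x, h5⟩⟩, ?_⟩
      change (φ ((g0 * k) x))⁻¹ • (g0 * k) y = _
      rw [h3, hφ, inv_one, one_smul, h4]
  · obtain ⟨g, hg, hf⟩ := g
    obtain ⟨g', hg', hf'⟩ := g'
    obtain ⟨h1, h2⟩ := m g hf
    obtain ⟨h3, h4⟩ := m g' hf'
    change (φ (g x))⁻¹ • g y = (φ (g' x))⁻¹ • g' y ↔ g⁻¹ * g' ∈ Rl S x y
    constructor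
    · refine fun e => ⟨mul_mem (inv_mem hf.1.1) hf'.1.1, Units.mk0 (φ (g' x) / φ (g x))
        (div_ne_zero h4 h2), inv_mul_app ?_, inv_mul_app ?_⟩
      · rw [map_smul, Units.val_mk0]
        nth_rewrite 2 [h1]
        rw [smul_smul, div_mul_cancel₀ _ h2, ← h3]
      · rw [map_smul, Units.val_mk0, div_eq_mul_inv, mul_smul, e, smul_inv_smul₀ h4]
    · rintro ⟨-, c, h5, h6⟩
      have h7 : g' x = (c : F) • g x := by rw [← map_smul, ← h5, LinearEquiv.mul_apply, app_inv]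
      have h8 : g' y = (c : F) • g y := by rw [← map_smul, ← h6, LinearEquiv.mul_apply, app_inv]
      rw [h7, h8, map_smul, smul_eq_mul, smul_smul, mul_inv, mul_right_comm,
        inv_mul_cancel₀ c.ne_zero, one_mul]

/-- consequences of transitivity on the points of the line -/
theorem flEq [Finite F] (hS : AllTv S) (hn : 3 ≤ finrank F V) (h : Ind F x y)
    (h1 : dc (Ln S x y) (Hl S K x y) (Fl S x y) = 1) {x' y' : V} (h' : Ind F x' y')
    (hx : x' ∈ span F {x, y}) (hy : y' ∈ span F {x, y}) : FlEq K x' y' x y := by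
  have := finGL F V
  obtain ⟨g, hg, rfl, rfl⟩ := tr2 hS h h' hn
  obtain ⟨a, ha, b, hb, rfl⟩ := dc_eq_one.1 h1 g (mem_Ln.2 ⟨hg, hx, hy⟩)
  obtain ⟨-, k, hk, h2⟩ := (mem_Hl hK hs).1 (inv_mem ha)
  refine ⟨k, hk, ?_, ?_⟩
  · rw [h2 _ hx, LinearEquiv.mul_apply, inv_app]; exact (mem_Fl.1 hb).2.1
  · rw [h2 _ hy, LinearEquiv.mul_apply, inv_app]; exact (mem_Fl.1 hb).2.2

omit hK hs [FiniteDimensional F V] in
theorem prEq {x' y' : V} (h' : Ind F x' y') (h1 : FlEq K x' y' x y) (hT : Tl K x y = ⊤) :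
    PrEq K x' y' x y := by
  obtain ⟨k, hk, h2, h3⟩ := h1
  obtain ⟨c, t, h4⟩ := mem_line.1 h3
  obtain ⟨l, hl⟩ := mem_span_singleton.1 h2
  have hl0 : l ≠ 0 := fun h0 => h'.1 (k.injective (by rw [← hl, h0, zero_smul, map_zero]))
  have hc : c ≠ 0 := fun h0 => h'.2 (mem_span_singleton.2 ⟨t / l, k.injective (by
    rw [map_smul, ← hl, h4, h0, smul_smul, div_mul_cancel₀ _ hl0, zero_smul, zero_add])⟩)
  obtain ⟨r, hr, h5, h6⟩ : -(t / c) ∈ Tl K x y := hT ▸ AddSubgroup.mem_top _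
  refine ⟨r * k, mul_mem hr hk, mem_span_singleton.2 ⟨l, ?_⟩, mem_span_singleton.2 ⟨c, ?_⟩⟩
  · rw [LinearEquiv.mul_apply, ← hl, map_smul, h5]
  · rw [LinearEquiv.mul_apply, h4, map_add, map_smul, map_smul, h5, h6, smul_add, smul_smul,
      mul_neg, mul_div_cancel₀ _ hc, neg_smul, neg_add_cancel_right]

/-- a point of the line at which all translations are induced -/
theorem exists_centre [Finite F] (hS : AllTv S) (h : Ind F x y)
    (hi : (Hl S K x y).relIndex (Ln S x y) = Nat.card F + 1) :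
    ∃ g ∈ Ln S x y, Tl K (g x) (g y) = ⊤ := by
  have := finGL F V
  obtain ⟨φ, h1, h2⟩ := H62.exists_dual_pair h.2
  obtain ⟨p, hp⟩ := CharP.exists F
  have := Fintype.ofFinite F
  obtain ⟨n, hp', hq⟩ := FiniteField.card F p
  have : Fact p.Prime := ⟨hp'⟩
  let T : Subgroup (Ln S x y) :=
    { carrier := {g | ∃ t : F, ∀ v, g.1 v = v + (t * φ v) • x}
      one_mem' := ⟨0, fun v => by simp⟩
      mul_mem' := fun {a b} ⟨s, ha⟩ ⟨t, hb⟩ => ⟨s + t, fun v => by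
        rw [Subgroup.coe_mul, LinearEquiv.mul_apply, hb, ha]
        simp only [map_add, map_smul, h2, smul_eq_mul]
        module⟩
      inv_mem' := fun {a} ⟨s, ha⟩ => ⟨-s, fun v => inv_eq (by
        rw [ha]
        simp only [map_add, map_smul, h2, smul_eq_mul]
        module)⟩ }
  have hT : IsPGroup p T := by
    rintro ⟨a, s, ha⟩
    refine ⟨1, Subtype.ext (Subtype.ext (LinearEquiv.ext fun v => ?_))⟩
    have : ∀ m : ℕ, (a.1 ^ m) v = v + (m * s * φ v) • x := fun m => by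
      induction m with
      | zero => simp
      | succ m ih =>
        rw [pow_succ', LinearEquiv.mul_apply, ih, ha]
        simp only [map_add, map_smul, h2, smul_eq_mul, Nat.cast_succ]
        module
    rw [pow_one]
    change (a.1 ^ p) v = v
    rw [this, CharP.cast_eq_zero]; simp
  obtain ⟨w, hw⟩ := hT.nonempty_fixed_point_of_prime_not_dvd_card
    (Ln S x y ⧸ (Hl S K x y).subgroupOf (Ln S x y)) (by
      change ¬ p ∣ (Hl S K x y).relIndex (Ln S x y)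
      rw [hi, Nat.card_eq_fintype_card, hq, Nat.dvd_add_right (dvd_pow_self p n.ne_zero)]
      exact hp'.one_lt.ne' ∘ Nat.dvd_one.1)
  obtain ⟨g, rfl⟩ := QuotientGroup.mk_surjective w
  refine ⟨g.1⁻¹, inv_mem g.2, eq_top_iff.2 fun t _ => ?_⟩
  obtain ⟨τ, hτ, h3⟩ := hS (t • φ) x (by simp [h2])
  have h4 : τ x = x := by simp [h3, h2]
  have h5 : τ y = y + t • x := by simp [h3, h1]
  have h6 : τ ∈ Ln S x y := mem_Ln.2 ⟨hτ, h4.symm ▸ xm, h5.symm ▸ add_mem ym (smul_mem _ _ xm)⟩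
  have h7 : g.1⁻¹ * (τ * g.1) ∈ Hl S K x y :=
    (QuotientGroup.eq (a := g) (b := ⟨τ, h6⟩ * g)).1
      (hw ⟨⟨τ, h6⟩, t, fun v => by simpa using h3 v⟩).symm
  obtain ⟨-, k, hk, h8⟩ := (mem_Hl hK hs).1 h7
  have st : ∀ v ∈ span F {x, y}, g.1⁻¹ v ∈ span F ({x, y} : Set V) :=
    fun v hv => ((inv_mem g.2 : _ ∈ Ln S x y).2 v).2 hv
  refine ⟨k, hk, ?_, ?_⟩
  · rw [h8 _ (st x xm), LinearEquiv.mul_apply, LinearEquiv.mul_apply, app_inv, h4]
  · rw [h8 _ (st y ym), LinearEquiv.mul_apply, LinearEquiv.mul_apply, app_inv, h5, map_add, map_smul]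

/-- if all translations at `x` are induced and `x` is moved, the group is transitive on the line -/
theorem trans_of_move (hT : Tl K x y = ⊤) (hg : g ∈ K)
    (h1 : g x ∈ span F {x, y}) (h2 : g y ∈ span F {x, y}) (h3 : g x ∉ F ∙ x) {w : V}
    (hw : w ∈ span F {x, y}) (h0 : w ≠ 0) : ∃ a ∈ Hl S K x y, a x = w := by
  obtain ⟨b, a, rfl⟩ := mem_line.1 hw
  have sc : ∀ c : F, c ≠ 0 → ∃ r ∈ Hl S K x y, ∀ v, r v = c • v := fun c hc => by
    obtain ⟨r, hr, e⟩ := hs c hc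
    exact ⟨r, mem_Hl_of hK hs hr (e x ▸ smul_mem _ _ xm) (e y ▸ smul_mem _ _ ym), e⟩
  rcases eq_or_ne b 0 with rfl | hb
  · obtain ⟨r, hr, e⟩ := sc a fun h1 => h0 (by simp [h1])
    exact ⟨r, hr, by simp [e]⟩
  obtain ⟨d, c, h4⟩ := mem_line.1 h1
  have hd : d ≠ 0 := fun h5 => h3 (mem_span_singleton.2 ⟨c, by simp [h4, h5]⟩)
  obtain ⟨r, hr, e⟩ := sc (b / d) (div_ne_zero hb hd)
  obtain ⟨τ, hτ, h5, h6⟩ : a / b - c / d ∈ Tl K x y := hT ▸ AddSubgroup.mem_top _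
  refine ⟨τ * (r * g), mul_mem (mem_Hl_of hK hs hτ (h5.symm ▸ xm)
    (h6.symm ▸ add_mem ym (smul_mem _ _ xm))) (mul_mem hr (mem_Hl_of hK hs hg h1 h2)), ?_⟩
  rw [LinearEquiv.mul_apply, LinearEquiv.mul_apply, e, h4, map_smul, map_add, map_smul, map_smul,
    h5, h6]
  match_scalars
  · field_simp
  · field_simp; ring

omit hK hs

theorem jobLine : JobLine.{u, v} := by
  intro J F _ _ V _ _ _ S K hK hs hS hn x y i h hi
  have := finGL F V
  have hs' : Sc S := fun c hc => let ⟨g, hg, e⟩ := hs c hc; ⟨g, hK hg, e⟩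
  have idx : ∀ {x y : V}, Ind F x y → (Fl S x y).relIndex (Ln S x y) = Nat.card F + 1 ∧
      (Rl S x y).relIndex (Ln S x y) = Nat.card F * (Nat.card F ^ 2 - 1) := fun {x y} h => by
    obtain ⟨z, hz⟩ := exists_ind3 (by omega) h
    obtain ⟨-, -, -, h1, h2, -⟩ := J F V S hs' hS hn x y z hz
    exact ⟨h1, h2⟩
  have hR : Rl S x y ≤ Hl S K x y := le_sup_right
  have e1 := Subgroup.relIndex_mul_relIndex _ _ _ hR (Hl_le (S := S) (K := K) x y)
  have e2 := Subgroup.relIndex_mul_relIndex _ _ _ (le_inf hR (Rl_le_Fl x y))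
    (inf_le_left : Hl S K x y ⊓ Fl S x y ≤ _)
  rw [idx_B hK hs h, Subgroup.inf_relIndex_left] at e2
  rw [hi, (idx h).2] at e1
  refine ⟨⟨Nat.card (Cl K x y) * (Fl S x y).relIndex (Hl S K x y), by rw [← e1, ← e2]; ring⟩,
    card_tl, fun h1 => ?_, fun h1 h2 => ?_⟩
  · rw [relIndex_of_dc (Hl_le x y) h1, (idx h).1] at e2
    refine ⟨?_, fun h2 => ?_, fun x' y' h' hx hy => flEq hK hs hS (by omega) h h1 h' hx hy,
      fun hT x' y' h' hx hy => prEq h' (flEq hK hs hS (by omega) h h1 h' hx hy) hT⟩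
    · refine Nat.eq_of_mul_eq_mul_right (Nat.succ_pos (Nat.card F)) ?_
      rw [mul_assoc, e2, mul_comm, e1, mul_assoc, ← one_pow 2, Nat.sq_sub_sq, mul_comm (_ + 1)]
      simp
    · rw [mul_comm, e2, ← hi]
      exact sub_one_dvd (Hl_le x y) hR (Rl_normal x y) h2
  obtain ⟨g, hg, hT⟩ := exists_centre hK hs hS h (hi.trans h2)
  have h0 : Ind F (g x) (g y) := ⟨fun e => h.1 (g.injective (e.trans (map_zero g).symm)), fun e => by
    obtain ⟨c, hc⟩ := mem_span_singleton.1 e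
    exact h.2 (mem_span_singleton.2 ⟨c, g.injective (by rw [map_smul, hc])⟩)⟩
  have hsp := span_eq_of_ind h0 (mem_Ln.1 hg).2.1 (mem_Ln.1 hg).2.2
  obtain ⟨c1, c2⟩ := Hl_congr (S := S) (K := K) hsp
  generalize g x = x₀ at *
  generalize g y = y₀ at *
  have fix : ∀ k ∈ K, k x₀ ∈ span F {x₀, y₀} → k y₀ ∈ span F {x₀, y₀} → k x₀ ∈ F ∙ x₀ := by
    intro k hk k1 k2
    by_contra k3
    have : dc (Ln S x y) (Hl S K x y) (Fl S x y) = 1 := dc_eq_one.2 fun p hp => by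
      obtain ⟨a, ha, e⟩ := trans_of_move hK hs hT hk k1 k2 k3 (w := p x)
        (hsp ▸ (mem_Ln.1 hp).2.1) fun e => h.1 (p.injective (e.trans (map_zero p).symm))
      obtain ⟨a', ha', e'⟩ := trans_of_move hK hs hT hk k1 k2 k3 (w := x) (hsp ▸ xm) h.1
      rw [c2] at ha ha'
      have hb := mul_mem (Hl_le x y (mul_mem ha' (inv_mem ha))) hp
      refine ⟨a * a'⁻¹, mul_mem ha (inv_mem ha'), a' * a⁻¹ * p,
        ⟨mem_Pt.2 ⟨hb.1, ?_⟩, hb⟩, by group⟩
      rw [LinearEquiv.mul_apply, LinearEquiv.mul_apply, ← e, inv_app, e']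
      exact mem_span_singleton_self x
    omega
  refine ⟨x₀, y₀, h0, fix, hT, eq_top_iff.2 fun c _ => ?_⟩
  have hle : Hl S K x₀ y₀ ≤ Fl S x₀ y₀ := fun a ha => by
    obtain ⟨h3, k, hk, e⟩ := (mem_Hl hK hs).1 ha
    obtain ⟨h4, h5, h6⟩ := mem_Ln.1 h3
    exact mem_Fl.2 ⟨h4, e x₀ xm ▸ fix k hk (e x₀ xm ▸ h5) (e y₀ ym ▸ h6), h6⟩
  have e3 := Subgroup.relIndex_mul_relIndex _ _ _ hle (inf_le_right : Fl S x₀ y₀ ≤ _)
  rw [(idx h0).1, c1, show (Hl S K x₀ y₀).relIndex (Ln S x y) = _ from c2 ▸ hi.trans h2,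
    mul_left_eq_self₀, Subgroup.relIndex_eq_one] at e3
  obtain ⟨a, ha, a1, a2⟩ := tr2 hS h0 (x' := x₀) (y' := (c : F) • y₀) ⟨h0.1, fun e => h0.2 (by
    simpa using smul_mem _ ((c⁻¹ : Fˣ) : F) e)⟩ (by omega)
  obtain ⟨-, k, hk, e⟩ := (mem_Hl hK hs).1 (e3.resolve_right (by omega) (mem_Fl.2
    ⟨ha, a1.symm ▸ mem_span_singleton_self x₀, a2.symm ▸ smul_mem _ _ ym⟩))
  exact ⟨k, hk, 0, by rw [e _ xm, a1], by rw [e _ ym, a2, zero_smul, add_zero]⟩

end H71.KL
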