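import Cfsg.Agent.H9.RVKit
import Mathlib.LinearAlgebra.Matrix.GeneralLinearGroup.Card
import Mathlib.GroupTheory.SemidirectProduct

/-! Tower RV (S5207): the groups between `SL₃(p)` and `GL₃(p) : 2`. -/

set_option autoImplicit false
set_option linter.unusedSectionVars false
open Matrix Subgroup H9.RV

namespace H71.RVL

variable {p : ℕ}

abbrev M3 (p : ℕ) : Type := Matrix (Fin 3) (Fin 3) (ZMod p)
abbrev G3 (p : ℕ) : Type := GL (Fin 3) (ZMod p)

/-- the transpose in the second diagonal -/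
def tw (M : M3 p) : M3 p := (M.submatrix Fin.revPerm Fin.revPerm)ᵀ

theorem tw_mul (M N : M3 p) : tw (M * N) = tw N * tw M := by
  rw [tw, ← submatrix_mul_equiv M N _ Fin.revPerm, transpose_mul]; rfl

theorem tw_one : tw (1 : M3 p) = 1 := by rw [tw, submatrix_one_equiv, transpose_one]

theorem tw_tw (M : M3 p) : tw (tw M) = M := by
  ext i j; simp [tw]

theorem det_tw (M : M3 p) : (tw M).det = M.det := by rw [tw, det_transpose, det_submatrix_equiv_self]

/-- the graph automorphism as a map -/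
def gf (g : G3 p) : G3 p := ⟨tw (g⁻¹).val, tw g.val, by rw [← tw_mul, Units.mul_inv, tw_one],
  by rw [← tw_mul, Units.inv_mul, tw_one]⟩

theorem gf_gf (g : G3 p) : gf (gf g) = g := Units.ext (tw_tw _)

/-- the graph automorphism -/
def gam (p : ℕ) : MulAut (G3 p) where
  toFun := gf
  invFun := gf
  left_inv := gf_gf
  right_inv := gf_gf
  map_mul' g h := Units.ext (by
    show tw ((g * h)⁻¹).val = tw (g⁻¹).val * tw (h⁻¹).val
    rw [_root_.mul_inv_rev, Units.val_mul, tw_mul])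

theorem gam_sq : gam p ^ 2 = 1 := by rw [pow_two]; exact MulEquiv.ext gf_gf

theorem gam_cases (a : zpowers (gam p)) : (a : MulAut (G3 p)) = 1 ∨ (a : MulAut (G3 p)) = gam p := by
  obtain ⟨_, k, rfl⟩ := a
  have h : gam p ^ (2 : ℤ) = 1 := by exact_mod_cast gam_sq
  show gam p ^ k = 1 ∨ gam p ^ k = gam p
  rcases Int.even_or_odd' k with ⟨j, rfl | rfl⟩
  · left; rw [_root_.zpow_mul, h, _root_.one_zpow]
  · right; rw [_root_.zpow_add, _root_.zpow_mul, h, _root_.one_zpow, one_mul, zpow_one]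

/-- the general linear group extended by the graph automorphism -/
abbrev Gm (p : ℕ) : Type := G3 p ⋊[(zpowers (gam p)).subtype] zpowers (gam p)

/-- the matrix of an element of the Heisenberg group -/
def um (u : He p) : M3 p := !![1, 2 * u.v 0, u.c + u.v 0 * u.v 1; 0, 1, u.v 1; 0, 0, 1]

theorem um_mul (u w : He p) : um (u * w) = um u * um w := by
  ext i j; fin_cases i <;> fin_cases j <;> simp [um, mul_apply, Fin.sum_univ_three, om] <;> ring

theorem um_one : um (1 : He p) = 1 := by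
  ext i j; fin_cases i <;> fin_cases j <;> simp [um]

/-- the unitriangular group -/
def i0 (p : ℕ) : He p →* G3 p := MonoidHom.toHomUnits ⟨⟨um, um_one⟩, um_mul⟩

theorem i0_val (u : He p) : (i0 p u).val = um u := rfl

/-- the embedding in the extension -/
def i1 (p : ℕ) : He p →* Gm p := SemidirectProduct.inl.comp (i0 p)

theorem conj_inl (x : Gm p) (g : G3 p) : x * SemidirectProduct.inl g * x⁻¹ =
    SemidirectProduct.inl (x.left * (x.right : MulAut (G3 p)) g * x.left⁻¹) := by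
  conv_lhs => rw [← SemidirectProduct.inl_left_mul_inr_right x]
  rw [map_mul, map_mul, map_inv, show (x.right : MulAut (G3 p)) g =
    (zpowers (gam p)).subtype x.right g from rfl, SemidirectProduct.inl_aut, map_inv]
  group

/-- the special linear group -/
def SS (p : ℕ) : Subgroup (Gm p) := (GeneralLinearGroup.det : G3 p →* (ZMod p)ˣ).ker.map SemidirectProduct.inl

theorem det_gam (g : G3 p) : GeneralLinearGroup.det (gam p g) = (GeneralLinearGroup.det g)⁻¹ := by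
  rw [← map_inv]; exact Units.ext (det_tw _)

instance : (SS p).Normal := ⟨by
  rintro _ ⟨g, hg, rfl⟩ x
  refine ⟨_, ?_, (conj_inl x g).symm⟩
  have hg' : GeneralLinearGroup.det g = 1 := hg
  show GeneralLinearGroup.det _ = 1
  rw [map_mul, map_mul, map_inv, mul_inv_cancel_comm]
  rcases gam_cases x.right with h | h <;> rw [h]
  · exact hg'
  · rw [det_gam, hg', inv_one]⟩

/-- the elements which induce an element of `W` -/
def NN (W : Subgroup (G2 p)) : Subgroup (Gm p) where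
  carrier := {x | ∃ B ∈ W, ∀ u, x * i1 p u * x⁻¹ = i1 p (sd B u)}
  one_mem' := ⟨1, one_mem _, fun u => by simp⟩
  mul_mem' := fun {x y} ⟨A, hA, hx⟩ ⟨B, hB, hy⟩ => ⟨A * B, mul_mem hA hB, fun u => by
    rw [map_mul, MulAut.mul_apply, ← hx, ← hy]; group⟩
  inv_mem' := fun {x} ⟨A, hA, hx⟩ => ⟨A⁻¹, inv_mem hA, fun u => by
    have := hx (sd A⁻¹ u)
    rw [show sd A (sd A⁻¹ u) = u by simp] at this
    rw [← this]; group⟩

theorem i1_mem (u : He p) : i1 p u ∈ SS p :=
  ⟨i0 p u, Units.ext (show (um u).det = 1 by simp [um, det_fin_three]), rfl⟩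

variable [hp : Fact p.Prime]

theorem i1_inj (h2 : p ≠ 2) : Function.Injective (i1 p) := fun u w h => by
  have h1 : um u = um w := congrArg Units.val (SemidirectProduct.inl_injective h)
  have a := congrFun (congrFun h1 0) 1
  have b := congrFun (congrFun h1 1) 2
  have c := congrFun (congrFun h1 0) 2
  simp [um, two_ne h2] at a b c
  rw [a, b] at c
  exact He.ext (funext fun i => by fin_cases i; exacts [a, b]) (add_right_cancel c)

instance : Finite (zpowers (gam p)) :=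
  (isOfFinOrder_iff_pow_eq_one.2 ⟨2, two_pos, gam_sq⟩).finite_zpowers

instance : Finite (Gm p) := Finite.of_equiv _ SemidirectProduct.equivProd.symm

theorem card_Gm (h2 : p ≠ 2) : ¬ p ^ 4 ∣ Nat.card (Gm p) := fun h => by
  have pp := hp.out
  rw [Nat.card_congr SemidirectProduct.equivProd, Nat.card_prod, card_GL_field, Nat.card_zpowers] at h
  replace h := h.trans (Nat.mul_dvd_mul_left _ (orderOf_dvd_of_pow_eq_one (gam_sq (p := p))))
  obtain ⟨q, rfl⟩ : ∃ q, p = q + 1 := ⟨p - 1, (Nat.sub_add_cancel pp.pos).symm⟩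
  have e : ∀ n, 0 < n → ¬ q + 1 ∣ (q + 1) ^ n - 1 := fun n hn h => pp.one_lt.ne' (Nat.dvd_one.1
    ((Nat.dvd_sub_iff_right (Nat.one_le_pow _ _ pp.pos) (dvd_pow_self _ hn.ne')).1 h))
  rw [ZMod.card, Fin.prod_univ_three, show (((q + 1) ^ 3 - (q + 1) ^ ((0 : Fin 3) : ℕ)) *
      ((q + 1) ^ 3 - (q + 1) ^ ((1 : Fin 3) : ℕ)) * ((q + 1) ^ 3 - (q + 1) ^ ((2 : Fin 3) : ℕ))) * 2 =
      (q + 1) ^ 3 * (((q + 1) ^ 3 - 1) * ((q + 1) ^ 2 - 1) * ((q + 1) ^ 1 - 1) * 2) from ?_, pow_succ,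
    Nat.mul_dvd_mul_iff_left (pow_pos pp.pos _), pp.dvd_mul, pp.dvd_mul, pp.dvd_mul] at h
  · rcases h with ((h | h) | h) | h
    exacts [e 3 (by decide) h, e 2 (by decide) h, e 1 (by decide) h,
      h2 ((Nat.prime_dvd_prime_iff_eq pp Nat.prime_two).1 h)]
  · have a1 : (q + 1) ^ 3 - (q + 1) ^ 1 = (q + 1) * ((q + 1) ^ 2 - 1) := by
      rw [Nat.mul_sub, mul_one, pow_one, ← pow_succ']
    have a2 : (q + 1) ^ 3 - (q + 1) ^ 2 = (q + 1) ^ 2 * ((q + 1) ^ 1 - 1) := by
      rw [Nat.mul_sub, mul_one, ← pow_add]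
    show ((q + 1) ^ 3 - 1) * ((q + 1) ^ 3 - (q + 1) ^ 1) * ((q + 1) ^ 3 - (q + 1) ^ 2) * 2 = _
    rw [a1, a2]; ring

theorem conj_of {g : G3 p} {u w : He p} (h : g.val * um u = um w * g.val) :
    (SemidirectProduct.inl g : Gm p) * i1 p u * (SemidirectProduct.inl g)⁻¹ = i1 p w := by
  rw [mul_inv_eq_iff_eq_mul]
  show _ * SemidirectProduct.inl (i0 p u) = SemidirectProduct.inl (i0 p w) * _
  rw [← map_mul, ← map_mul, show g * i0 p u = i0 p w * g from Units.ext h]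

theorem of_conj {g : G3 p} {u w : He p}
    (h : (SemidirectProduct.inl g : Gm p) * i1 p u * (SemidirectProduct.inl g)⁻¹ = i1 p w) :
    g.val * um u = um w * g.val := by
  rw [mul_inv_eq_iff_eq_mul] at h
  have h1 : (SemidirectProduct.inl (g * i0 p u) : Gm p) = SemidirectProduct.inl (i0 p w * g) := by
    rw [map_mul, map_mul]; exact h
  exact congrArg Units.val (SemidirectProduct.inl_injective h1)

theorem diag_mem {B : G2 p} (h1 : B 0 1 = 0) (h2 : B 1 0 = 0) : B ∈ WG (i1 p) := by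
  have h := dt_ne B
  rw [dt_eq, h1, zero_mul, sub_zero] at h
  refine ⟨SemidirectProduct.inl (GeneralLinearGroup.mkOfDetNeZero
    !![B 0 0 * B 1 1, 0, 0; 0, B 1 1, 0; 0, 0, 1] ?_), fun u => conj_of ?_⟩
  · rw [det_fin_three]; simpa using mul_ne_zero_iff.1 h
  · show !![B 0 0 * B 1 1, 0, 0; 0, B 1 1, 0; 0, 0, 1] * _ =
      _ * !![B 0 0 * B 1 1, 0, 0; 0, B 1 1, 0; 0, 0, 1]
    ext i j
    fin_cases i <;> fin_cases j <;>
      simp [um, mul_apply, Fin.sum_univ_three, act_apply0, act_apply1, dt_eq, h1, h2] <;> ring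

theorem exists_sig (h2 : p ≠ 2) : ∃ s : G2 p, s 0 0 = 0 ∧ s 1 1 = 0 ∧ s 0 1 * s 1 0 = 1 ∧
    ∀ u, gam p (i0 p u) = i0 p (sd s u) := by
  have h := two_ne h2
  obtain ⟨s, hs⟩ := exists_mat (p := p) 0 (-2⁻¹) (-2) 0 (by simpa using h)
  have a : s 0 0 = 0 := by simp [hs]
  have b : s 0 1 = -2⁻¹ := by simp [hs]
  have c : s 1 0 = -2 := by simp [hs]
  have d : s 1 1 = 0 := by simp [hs]
  refine ⟨s, a, d, by rw [b, c]; field_simp, fun u => Units.ext ?_⟩
  show tw ((i0 p u)⁻¹).val = um _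
  rw [← map_inv, i0_val]
  ext i j
  fin_cases i <;> fin_cases j <;>
    simp [um, tw, Fin.rev, act_apply0, act_apply1, dt_eq, a, b, c, d] <;> field_simp

theorem mono_mem (h2 : p ≠ 2) {B : G2 p} (h : (B 0 1 = 0 ∧ B 1 0 = 0) ∨ (B 0 0 = 0 ∧ B 1 1 = 0)) :
    B ∈ WG (i1 p) := by
  rcases h with h | h
  · exact diag_mem h.1 h.2
  obtain ⟨s, a, d, -, e⟩ := exists_sig h2
  have hs : s ∈ WG (i1 p) := ⟨SemidirectProduct.inr ⟨gam p, mem_zpowers _⟩, fun u =>
    (conj_inl _ _).trans (by simp [e, i1])⟩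
  exact (mul_mem_cancel_right hs).1 (diag_mem (by simp [mul_apply, Fin.sum_univ_two, h.1, d])
    (by simp [mul_apply, Fin.sum_univ_two, h.2, a]))

theorem sl_mem (h2 : p ≠ 2) {W : Subgroup (G2 p)} (hW : Mono W) {C : G2 p} {s : Gm p} (hs : s ∈ SS p)
    (h : ∀ u, s * i1 p u * s⁻¹ = i1 p (sd C u)) : C ∈ W := by
  obtain ⟨g, hg, rfl⟩ := hs
  have hd : g.val.det = 1 := congrArg Units.val (show GeneralLinearGroup.det g = 1 from hg)
  have z := of_conj (h ⟨0, 1⟩)
  have x := of_conj (h ⟨![1, 0], 0⟩)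
  have y := of_conj (h ⟨![0, 1], 0⟩)
  have t := two_ne h2
  have d := dt_ne C
  have z1 := congrFun (congrFun z 1) 2
  have z2 := congrFun (congrFun z 0) 0
  have z3 := congrFun (congrFun z 0) 1
  simp [um, mul_apply, Fin.sum_univ_three, act_zero, d] at z1 z2 z3
  have x1 := congrFun (congrFun x 0) 1
  have x2 := congrFun (congrFun x 1) 2
  have y1 := congrFun (congrFun y 0) 1
  have y2 := congrFun (congrFun y 1) 2
  rw [det_fin_three, z1, z2, z3] at hd
  replace hd : g.val 0 0 * g.val 1 1 * g.val 2 2 = 1 := by linear_combination hd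
  have n0 : g.val 0 0 ≠ 0 := fun e => by simp [e] at hd
  have n1 : g.val 1 1 ≠ 0 := fun e => by simp [e] at hd
  have n2 : g.val 2 2 ≠ 0 := fun e => by simp [e] at hd
  simp [um, mul_apply, Fin.sum_univ_three, act_apply0, act_apply1, z1, z3, n1, n2, t] at x1 x2 y1 y2
  obtain ⟨A, hA, eA⟩ := hW.t1 _ (mul_ne_zero n0 n1)
  obtain ⟨B, hB, eB⟩ := hW.t2 _ n0
  refine (show A * B = C from Units.ext ?_) ▸ mul_mem hA hB
  rw [Units.val_mul, eA, eB]
  ext i j
  fin_cases i <;> fin_cases j <;> simp [mul_apply, Fin.sum_univ_two, x2, y1]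
  · have k : g.val 0 0 = C.val 0 0 * g.val 1 1 := mul_left_cancel₀ t (by linear_combination x1)
    field_simp
    linear_combination k
  · field_simp
    linear_combination g.val 0 0 * g.val 1 1 * y2 + C.val 1 1 * hd

theorem rax_of (h2 : p ≠ 2) {v : V2 p} {x : Gm p} {c : ZMod p}
    (h : x * i1 p ⟨v, 0⟩ * x⁻¹ = i1 p ⟨0, c⟩) : v 0 * v 1 = 0 := by
  have key : ∀ (w : V2 p) (d : ZMod p) (g : G3 p), g * i0 p ⟨w, d⟩ * g⁻¹ = i0 p ⟨0, c⟩ → w 0 * w 1 = 0 := by
    intro w d g e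
    have e1 : um ⟨w, d⟩ - 1 = (g⁻¹).val * (um ⟨0, c⟩ - 1) * g.val := by
      rw [← i0_val, ← i0_val, ← e]
      simp [mul_sub, sub_mul, mul_assoc]
    have e2 : (um (⟨0, c⟩ : He p) - 1) * (um ⟨0, c⟩ - 1) = 0 := by
      ext i j; fin_cases i <;> fin_cases j <;> simp [um, mul_apply, Fin.sum_univ_three]
    have e3 : (um (⟨w, d⟩ : He p) - 1) * (um ⟨w, d⟩ - 1) = 0 := by
      rw [e1, mul_assoc, mul_assoc, ← mul_assoc g.val, ← mul_assoc g.val, Units.mul_inv, one_mul,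
        ← mul_assoc (um _ - 1), e2, zero_mul, mul_zero]
    have e4 := congrFun (congrFun e3 0) 2
    simpa [um, mul_apply, Fin.sum_univ_three, two_ne h2] using e4
  have h1 := SemidirectProduct.inl_injective ((conj_inl x _).symm.trans h)
  rcases gam_cases x.right with e | e <;> rw [e] at h1
  · exact key _ _ _ h1
  · obtain ⟨s, a, d, b, e⟩ := exists_sig h2
    rw [e, sd_mk] at h1
    have := key _ _ _ h1
    rw [act_apply0, act_apply1, a, d] at this
    linear_combination this - v 0 * v 1 * b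

theorem of_rax {v : V2 p} (h : v 0 * v 1 = 0) :
    ∃ s ∈ SS p, ∃ c, s * i1 p ⟨v, 0⟩ * s⁻¹ = i1 p ⟨0, c⟩ := by
  rcases mul_eq_zero.1 h with h | h
  · refine ⟨_, ⟨GeneralLinearGroup.mkOfDetNeZero !![0, 1, 0; -1, 0, 0; 0, 0, 1] ?_, Units.ext ?_, rfl⟩,
      v 1, conj_of ?_⟩
    · simp [det_fin_three]
    · show (!![0, 1, 0; -1, 0, 0; 0, 0, 1] : M3 p).det = 1
      simp [det_fin_three]
    · show !![0, 1, 0; -1, 0, 0; 0, 0, 1] * _ = _ * !![0, 1, 0; -1, 0, 0; 0, 0, 1]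
      ext i j
      fin_cases i <;> fin_cases j <;> simp [um, mul_apply, Fin.sum_univ_three, h]
  · refine ⟨_, ⟨GeneralLinearGroup.mkOfDetNeZero !![1, 0, 0; 0, 0, 1; 0, -1, 0] ?_, Units.ext ?_, rfl⟩,
      -(2 * v 0), conj_of ?_⟩
    · simp [det_fin_three]
    · show (!![1, 0, 0; 0, 0, 1; 0, -1, 0] : M3 p).det = 1
      simp [det_fin_three]
    · show !![1, 0, 0; 0, 0, 1; 0, -1, 0] * _ = _ * !![1, 0, 0; 0, 0, 1; 0, -1, 0]
      ext i j
      fin_cases i <;> fin_cases j <;> simp [um, mul_apply, Fin.sum_univ_three, h]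

end H71.RVL

theorem H71.RVL.jobL : H9.RV.JobL := by
  intro p hp h2 W hW
  open H71.RVL in
  let G := SS p ⊔ NN W
  let ι : He p →* G := (i1 p).codRestrict G fun u => mem_sup_left (i1_mem u)
  have inj : Function.Injective ι := fun u w h => i1_inj h2 (congrArg Subtype.val h)
  have hc : Nat.card ι.range = p ^ 3 := by
    rw [← Nat.card_congr (MonoidHom.ofInjective inj).toEquiv, card_He]
  refine ⟨G, inferInstance, inferInstance, ι, inj, ⟨(IsPGroup.of_card hc).toSylow fun h => ?_, rfl⟩,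
    Subgroup.ext fun A => ⟨?_, fun hA => ?_⟩, Set.ext fun v => ⟨?_, ?_⟩⟩
  · refine card_Gm h2 (Dvd.dvd.trans ?_ (card_subgroup_dvd_card G))
    rw [← card_mul_index ι.range, hc, pow_succ]
    exact Nat.mul_dvd_mul_left _ h
  · rintro ⟨⟨x, hx⟩, h⟩
    obtain ⟨s, hs, m, ⟨B, hB, hm⟩, rfl⟩ := mem_sup_of_normal_left.1 hx
    refine (mul_mem_cancel_right (inv_mem hB)).1 (sl_mem h2 hW hs fun u => ?_)
    have h1 : s * m * i1 p (sd B⁻¹ u) * (s * m)⁻¹ = i1 p (sd A (sd B⁻¹ u)) := congrArg Subtype.val (h _)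
    have h3 := hm (sd B⁻¹ u)
    rw [show sd B (sd B⁻¹ u) = u by simp] at h3
    rw [map_mul, MulAut.mul_apply, ← h1, ← h3]; group
  · obtain ⟨x, hx⟩ := mono_mem h2 (hW.mon A hA)
    exact ⟨⟨x, mem_sup_right ⟨A, hA, hx⟩⟩, fun u => Subtype.ext (hx u)⟩
  · rintro ⟨hv, ⟨x, hx⟩, c, h⟩
    exact ⟨hv, rax_of h2 (congrArg Subtype.val h)⟩
  · rintro ⟨hv, h⟩
    obtain ⟨s, hs, c, e⟩ := of_rax h
    exact ⟨hv, ⟨s, mem_sup_left hs⟩, c, Subtype.ext e⟩
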