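import Cfsg.Agent.H9.RVKit
import Cfsg.Agent.H90.RV

/-! Tower RV (S5207): three radical lines force `p ∈ {3, 5, 7, 13}`. -/

set_option autoImplicit false
open Matrix hiding zpow_add zpow_mul one_zpow
open Subgroup MatrixGroups MulAction H61 H9.RV H90.RV

namespace H71.RVP

theorem tor {p : ℕ} [Fact p.Prime] {W : Subgroup (G2 p)} {R : Set (V2 p)} (h : Adm p W R) {v : V2 p}
    (hv : v ∈ R) : ∃ t : W.map ProjGenLinGroup.mk,
      t • rat (Projectivization.mk _ v (h.ne v hv)) = rat (Projectivization.mk _ v (h.ne v hv)) ∧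
        ∀ k, t ^ k = 1 → p - 1 ∣ 3 * k := by
  obtain ⟨L, hL⟩ := IsCyclic.exists_ofOrder_eq_natCard (α := (ZMod p)ˣ)
  rw [Nat.card_eq_fintype_card, ZMod.card_units] at hL
  obtain ⟨A, hA, h1, h2⟩ := h.tor v hv L L.ne_zero
  refine ⟨⟨_, A, hA, rfl⟩, (pgl_smul_rat _ _).trans (congrArg _ ?_), fun n hn => ?_⟩
  · refine (Projectivization.PGL.mk_smul_mk _ _).trans ?_
    rw [Projectivization.mk_eq_mk_iff']
    exact ⟨_, h1.symm⟩
  · have h3 : ProjGenLinGroup.mk (A ^ n) = 1 := by rw [map_pow]; exact congrArg Subtype.val hn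
    rw [ProjGenLinGroup.mk_eq_one, GeneralLinearGroup.mem_center_iff_val_mem_range_scalar] at h3
    obtain ⟨c, hc⟩ := h3
    have h4 : ∀ n : ℕ, act (A ^ n) v = (L : ZMod p)⁻¹ ^ n • v := fun n => by
      induction n with
      | zero => rw [pow_zero, pow_zero, act_one, one_smul]
      | succ n ih => rw [pow_succ', act_mul, ih, act_smul, h1, smul_smul, pow_succ]
    have h5 : (L : ZMod p)⁻¹ ^ n = c := smul_inj (h.ne v hv) ((h4 n).symm.trans (by
      rw [act, ← hc]; ext i; simp [mulVec_diagonal]))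
    have h6 : (L : ZMod p) ^ n = c ^ 2 := by
      rw [← h2, dt, ← det_pow, ← Units.val_pow_eq_pow_val, ← hc]; simp
    rw [← hL, orderOf_dvd_iff_pow_eq_one, ← Units.val_eq_one, Units.val_pow_eq_pow_val,
      show 3 * n = n + n * 2 by ring, pow_add, h6, ← h5, pow_mul, ← mul_pow, ← mul_pow,
      inv_mul_cancel₀ L.ne_zero, one_pow, one_pow]

theorem jobP : H9.RV.JobP := by
  intro p hp h2 W R h ⟨u, hu, v, hv, w, hw, a, b, c⟩
  have pp := hp.out
  have key : ∀ n, n = 6 ∨ n = 9 ∨ n = 12 ∨ n = 15 → p - 1 ∣ n → p = 3 ∨ p = 5 ∨ p = 7 ∨ p = 13 := by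
    intro n hn hd
    have h9 := Nat.le_of_dvd (by omega) hd
    have h10 : p ≤ 16 := by omega
    interval_cases p <;> first | exact absurd pp (by decide) | omega
  by_contra hn
  have ne : ∀ {x y : V2 p} (hx : x ∈ R) (hy : y ∈ R), om x y ≠ 0 →
      rat (Projectivization.mk _ x (h.ne x hx)) ≠ rat (Projectivization.mk _ y (h.ne y hy)) := by
    intro x y hx hy e k
    obtain ⟨t, ht⟩ := (Projectivization.mk_eq_mk_iff' _ _ _ _ _).1 (rat_injective k)
    exact e (by rw [← ht, om_smul_left, om_self, mul_zero])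
  obtain ⟨r, r1, r2⟩ := tor h hu
  obtain ⟨s, s1, s2⟩ := tor h hv
  obtain ⟨t, t1, t2⟩ := tor h hw
  have k : ∀ n, n = 2 ∨ n = 3 ∨ n = 4 ∨ n = 5 → r ^ n ≠ 1 := fun n m e =>
    hn (key (3 * n) (by omega) (r2 n e))
  rcases dickson3 ((hur_pglF (ZMod p) p).subgroup (W.map ProjGenLinGroup.mk))
    (fun e => h.cop (e.trans (card_map_dvd _ _))) (ne hu hv a) (ne hu hw b) (ne hv hw c) r1 s1 t1
    (k 2 (by decide)) (fun e => hn (key 6 (by decide) (s2 2 e)))
    (fun e => hn (key 6 (by decide) (t2 2 e))) with ⟨⟨e⟩⟩ | ⟨⟨e⟩⟩ | ⟨⟨e⟩⟩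
  · rcases pow_alt4 e r with h9 | h9 <;> exact k _ (by decide) h9
  · rcases pow_sym4 e r with h9 | h9 <;> exact k _ (by decide) h9
  · rcases pow_alt5 e r with h9 | h9 | h9 <;> exact k _ (by decide) h9

end H71.RVP
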