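import Cfsg.Agent.H71.RVKit
import Cfsg.Agent.H15.ThMat

/-! Tower RV (S5207): the Sylow 5-subgroup of the Thompson group. -/

set_option maxRecDepth 1000000
set_option Elab.async false
set_option autoImplicit false

namespace H71.RV.Th
open H73 H74.ThT H15.RepTh

/-- the value of an expression -/
noncomputable def E (e : WE) : Cfsg.Spor.Th := evw Ths.val e.flat

theorem E_m (a b : WE) : E (.m a b) = E a * E b := evw_append _ _ _
theorem E_s (a : WE) : E (.s a) = E a * E a := evw_append _ _ _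

theorem E_ne {a b c d : WE} (h : band (band (inM (maskL LB) (WE.m a b).flat) (inM (maskL LB) (WE.m c d).flat))
    (Nat.beq ((WE.m a b).ev mT 492032 CB) ((WE.m c d).ev mT 492032 CB)).not = true) :
    E a * E b ≠ E c * E d := by
  obtain ⟨h1, h2⟩ := band_spec.1 h
  obtain ⟨a1, a2⟩ := band_spec.1 h1
  have e := Sys.R.ne_of_beq (WE.ev_spec hπ (inM_spec a1)) (WE.ev_spec hπ (inM_spec a2))
    (Bool.not_eq_true' _ ▸ h2)
  have k : ∀ w : List ℕ, (∀ l ∈ w, l ∈ LB) → ρ (evw Ths.val w) = evw π w := fun w hw => by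
    rw [map_evw]
    exact congrArg List.prod (List.map_congr_left fun l hl => hρ l (hw l hl))
  rw [← k _ (inM_spec a1), ← k _ (inM_spec a2)] at e
  rw [← E_m, ← E_m]
  exact fun h => e (congrArg ρ h)

def eX : WE := (.m (.m (.l 9) (.m (.l 4) (.l 0))) (.m (.l 9) (.m (.l 1) (.l 5))))
def eA : WE := (.m (.m (.l 8) (.l 9)) (.m (.l 5) (.l 7)))
def eB : WE := (.m (.m (.l 7) (.l 4)) (.m (.l 9) (.l 8)))
def eM : WE := .m (.m (.m eA (.m (.l 6) (.m (.l 5) (.l 7)))) eA) (.m (.m (.m (.l 10) (.l 2)) (.m (.l 1) (.l 5))) (.m (.m (.l 9) (.l 10)) (.m (.l 0) (.m (.l 0) (.l 4)))))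
def eV : WE := .m (.m eM eX) (.m (.m (.m (.m (.l 5) (.l 1)) (.m (.l 1) (.l 10))) (.m (.m (.l 9) (.l 4)) (.m (.l 0) (.m (.l 3) (.l 10))))) (.m (.m eB (.m (.l 7) (.m (.l 4) (.l 6)))) eB))
def eN : WE := (.m (.m (.m (.l 5) (.l 0)) (.m (.l 10) (.m (.l 9) (.l 8)))) (.m (.m (.l 9) (.l 10)) (.m (.l 9) (.m (.l 8) (.l 2)))))
def eW : WE := .m (.m eN eV) (.m (.m (.m (.l 3) (.l 8)) (.m (.l 9) (.m (.l 10) (.l 9)))) (.m (.m (.l 8) (.l 9)) (.m (.l 10) (.m (.l 1) (.l 4)))))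
def eO : WE := (.m (.m (.m (.l 8) (.l 9)) (.m (.l 4) (.m (.l 0) (.l 2)))) (.m (.m (.l 0) (.l 10)) (.m (.l 9) (.m (.l 4) (.l 1)))))
def eU : WE := .m (.m eO eV) (.m (.m (.m (.l 0) (.l 5)) (.m (.l 9) (.m (.l 10) (.l 1)))) (.m (.m (.l 3) (.l 1)) (.m (.l 5) (.m (.l 9) (.l 8)))))

theorem chk : eqsE [(.m (.m (.s (.s eX)) eX) eX, eX), (.m eX eV, .m eV eX), (.m eX eW, .m eW eX),
    (.m eM eX, .m eV eM), (.m eN eV, .m eW eN), (.m eO eV, .m eU eO),
    (.m eW eV, .m (.m eV eW) (.s (.s eX))), (.m (.m eV eW) eU, .m (.s eX) eX)] = true := by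
  decide +kernel

theorem ne : E eV * E eW ≠ E eW * E eV := E_ne (by decide +kernel)

theorem three : ∃ (G : Type) (_ : Group G) (_ : Finite G) (P : Sylow 5 G), H30.Rv.Three 5 P := by
  have : Fact (Nat.Prime 5) := ⟨Nat.prime_five⟩
  have : Finite Cfsg.Spor.Th := Nat.finite_of_card_ne_zero (by rw [H88.ThT.card]; norm_num)
  have h : ∀ p : WE × WE, p ∈ _ → E p.1 = E p.2 := of_eqsE chk
  simp only [List.forall_mem_cons, E_m, E_s] at h
  obtain ⟨h1, h2, h3, h4, h5, h6, h7, h8, -⟩ := h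
  have c : ∀ {a b g : Cfsg.Spor.Th}, g * a = b * g → IsConj a b := fun h =>
    isConj_iff.2 ⟨_, mul_inv_eq_iff_eq_mul.2 h⟩
  refine ⟨Cfsg.Spor.Th, inferInstance, inferInstance, three_of (x := E eX) (v := E eV) (w := E eW)
    (u := E eU) (k := 4) (c := 3) (by norm_num) (by rw [H88.ThT.card]; norm_num) ?_ h2 h3 (c h4)
    ((c h4).trans (c h5)) ((c h4).trans (c h6)) ?_ ne ?_⟩
  · rw [← mul_eq_right.1 h1]
    simp only [pow_succ, pow_zero, one_mul, mul_assoc]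
  · rw [h7]
    simp only [pow_succ, pow_zero, one_mul, mul_assoc]
  · rw [h8]
    simp only [pow_succ, pow_zero, one_mul, mul_assoc]

end H71.RV.Th
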