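/- Tower RC, job ROK. -/
import Cfsg.Agent.H52.RCSpec

set_option autoImplicit false

namespace H71.RcROK

open Subgroup H52.RC

universe u

theorem p2_map {A B : Type u} [Group A] [Group B] (f : A →* B) {a : A} (h : P2 a) : P2 (f a) := by
  obtain ⟨k, hk⟩ := h
  exact ⟨k, by rw [← map_pow, hk, map_one]⟩

theorem jobROK : JobROK.{u} := by
  intro ka kb _ G _ _ m L _ hS ⟨y, y1, yo, ⟨a, ha⟩, yc⟩ s hs
  obtain ⟨w, rfl⟩ := QuotientGroup.mk'_surjective (center L) y
  obtain ⟨g, rfl⟩ := QuotientGroup.mk'_surjective (center L) a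
  obtain ⟨i, j, hi, hj, hij⟩ := (ka L).2.2.1 w
  set π := QuotientGroup.mk' (center L) with hπ
  have e1 : π (w ^ i) = 1 := eq_one_of_P2 (p2_map π hi) (by
    rw [map_pow]
    exact yo.of_dvd_nat (orderOf_pow_dvd i))
  have e2 : π (w ^ j) = π w := by
    conv_rhs => rw [← hij, map_mul, e1, one_mul]
  generalize w ^ j = x at hj e2
  rw [← e2] at y1 yo ha yc
  have hz : x * (g * x * g⁻¹) ∈ center L := by
    rw [← QuotientGroup.eq_one_iff]
    change π _ = 1
    rw [map_mul, map_mul, map_mul, map_inv, ha, mul_inv_cancel]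
  have hi' : Inv g x := by
    have h1 : x * (g * x * g⁻¹) = 1 := by
      refine eq_one_of_P2 ?_ (hj.of_dvd_nat (orderOf_dvd_of_pow_eq_one ?_))
      · obtain ⟨k, hk⟩ := hS.2.2 ⟨_, hz⟩
        exact ⟨k, congrArg Subtype.val hk⟩
      · have hc : Commute x (g * x * g⁻¹) := by
          have := mem_center_iff.1 hz x
          rw [mul_assoc x _ x] at this
          exact mul_left_cancel this
        rw [hc.mul_pow, conj_pow, pow_orderOf_eq_one]
        group
    exact eq_inv_of_mul_eq_one_right h1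
  have x1 : (x : G) ≠ 1 := fun h => y1 (by rw [show x = 1 from Subtype.ext h, map_one])
  have hm := (kb G m hS.1 x (by rwa [orderOf_coe]) x1 ⟨g, congrArg Subtype.val hi'⟩).2.1
  obtain ⟨T, -, ⟨t1, t2, -⟩, t3⟩ := (ka G).2.2.2.2.2.2.1 (C1 (x : G)) ⊥ IsPGroup.of_bot bot_le
  rw [hm] at t3
  have hle : L ⊓ T ≤ Zc L := fun t ht => by
    rw [← mk_eq_one_iff (z := ⟨t, ht.1⟩)]
    change π _ = 1
    refine eq_one_of_P2 (p2_map π ?_) (yc.of_dvd_nat (orderOf_dvd_natCard _ ?_))
    · obtain ⟨k, hk⟩ := t2 ⟨t, ht.2⟩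
      exact ⟨k, Subtype.ext (congrArg Subtype.val hk :)⟩
    · exact mem_C1.2 (Commute.map (Subtype.ext (mem_C1.1 (t1 ht.2)).eq) π)
  have h1 : Nat.card T ∣ Nat.card (center L) * L.index := by
    rw [← (L.subgroupOf T).card_mul_index, ← card_Zc]
    refine mul_dvd_mul ?_ (L.relIndex_dvd_index_of_normal T)
    rw [← card_map_of_injective T.subtype_injective, subgroupOf_map_subtype]
    exact card_dvd_of_le hle
  have h2 : 2 ^ (m + s) ∣ Nat.card (⊤ : Subgroup G) := by
    rw [card_top, ← L.card_mul_index, card_eq_card_quotient_mul_card_subgroup (center L), pow_add,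
      mul_comm, mul_assoc, ← t3]
    exact mul_dvd_mul hs h1
  exact (Nat.prime_two.pow_dvd_iff_le_factorization Nat.card_pos.ne').1 h2

end H71.RcROK
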