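import Cfsg.Agent.H65.SRSpec2
import Cfsg.Agent.H64.CT3
import Cfsg.Agent.H64.CT4
import Cfsg.Agent.S2397
import Cfsg.Agent.S1077
import Cfsg.Agent.S1078
import Cfsg.Agent.S1054

/-! STD-R, job CT: the Curtis–Tits theorem for `F₄(q)` in characteristic `2`. -/

set_option autoImplicit false
set_option linter.unusedSectionVars false

namespace H71.SRCT

open Cfsg.Lie H63 H64 H65 H65.SR H63.Oc
open scoped commutatorElement

universe u v

local instance tabCT : H65.Tab chevF4 := H65.tabF4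
local instance commCT : H65.Comm chevF4 := H65.commF4

/-- the terms of the commutator formula that survive in characteristic `2` -/
def ct (r s : ℕ) : List (ℕ × ℕ × ℕ) :=
  (chevF4.commTerms r s).filterMap fun c => if c.2.1 % 2 = 0 then none else some (c.1, c.2.2)

variable {K : Type*} [Field K] [CharP K 2] {G : Type*} [Group G] {x : ℕ → K → G}

theorem wd_ct (h0 : ∀ c, x c 0 = 1) (r s : ℕ) (t u : K) : wd x (chevF4.commWord K r s t u) =
    ((ct r s).map fun c => x c.1 (t ^ c.2.1 * u ^ c.2.2)).prod := by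
  rw [ChevalleyDatum.commWord, ct]
  induction chevF4.commTerms r s with
  | nil => rfl
  | cons c l ih =>
    rw [List.map_cons, wd_cons, ih, List.filterMap_cons]
    have h2 : ((2 : ℤ) : K) = 0 := by exact_mod_cast CharP.cast_eq_zero K 2
    have e : (c.2.1 : K) = ((c.2.1 % 2 : ℤ) : K) := by
      conv_lhs => rw [← Int.emod_add_mul_ediv c.2.1 2]
      rw [Int.cast_add, Int.cast_mul, h2, zero_mul, add_zero]
    rcases Int.emod_two_eq_zero_or_one c.2.1 with h | h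
    · simp only [h, if_true]
      rw [e, h, Int.cast_zero, zero_mul, zero_mul, h0, one_mul]
    · simp only [h, one_ne_zero, if_false, List.map_cons, List.prod_cons]
      rw [e, h, Int.cast_one, one_mul, CharTwo.neg_eq]

/-- the commutator relation of the pair `r, s` -/
def Rel (x : ℕ → K → G) (r s : ℕ) : Prop := ∀ t u, x s u * x r t =
  x r t * x s u * ((ct r s).map fun c => x c.1 (t ^ c.2.1 * u ^ c.2.2)).prod

theorem relC {r s : ℕ} (e : ct r s = []) (h : ∀ t u, Commute (x r t) (x s u)) : Rel x r s :=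
  fun t u => by rw [e, List.map_nil, List.prod_nil, mul_one, (h t u).eq]

theorem swap_of {a b w : G} (h : ⁅a, b⁆ = w) (ca : Commute a w) (cb : Commute b w) (ww : w * w = 1) :
    b * a = a * b * w ∧ a * b = b * a * w := by
  have e : a * b = b * a * w := by
    rw [(cb.mul_left ca).eq, ← h, commutatorElement_def]; group
  exact ⟨by rw [e, mul_assoc _ w, ww, mul_one], e⟩

theorem sq_of {z : K → G} (h : ∀ a b, z (a + b) = z a * z b) (a : K) : z 0 = 1 ∧ z a * z a = 1 := by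
  have h0 : z 0 = 1 := by
    have := h 0 0
    rw [add_zero] at this
    exact mul_eq_left.1 this.symm
  exact ⟨h0, by rw [← h, CharTwo.add_self_eq_zero, h0]⟩

theorem relA {z : Fin 6 → K → G} (h : A2R z) (f : Fin 6 → ℕ) (hx : ∀ i, x (f i) = z i)
    (hc : ∀ i, ct (f i) (f (i + 1)) = [] ∧ ct (f (i + 1)) (f i) = [] ∧
      ct (f i) (f (i + 2)) = [(f (i + 1), 1, 1)] ∧ ct (f (i + 2)) (f i) = [(f (i + 1), 1, 1)])
    (i j : Fin 6) (h1 : j ≠ i) (h2 : j ≠ i + 3) : Rel x (f i) (f j) := by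
  have k : ∀ i a b, z (i + 2) b * z i a = z i a * z (i + 2) b * z (i + 1) (a * b) ∧
      z i a * z (i + 2) b = z (i + 2) b * z i a * z (i + 1) (a * b) := fun i a b =>
    swap_of (h.c2 i a b) (h.c1 i _ _) (by
      have := (h.c1 (i + 1) (a * b) b).symm
      rwa [add_assoc] at this) (sq_of (h.add _) _).2
  rcases (by decide : ∀ i j : Fin 6, j ≠ i → j ≠ i + 3 →
    j = i + 1 ∨ i = j + 1 ∨ j = i + 2 ∨ i = j + 2) i j h1 h2 with rfl | rfl | rfl | rfl
  · exact relC (hc i).1 fun t u => by rw [hx, hx]; exact h.c1 i t u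
  · exact relC (hc j).2.1 fun t u => by rw [hx, hx]; exact (h.c1 j u t).symm
  · intro t u
    rw [(hc i).2.2.1]
    simpa [hx] using (k i t u).1
  · intro t u
    rw [(hc j).2.2.2]
    simpa [hx, mul_comm t u] using (k j u t).2

theorem relB {T : TF K} {ρ : K →+* K} (hρ : ∀ a, T.σ (ρ a) = a) {z : Fin 8 → K → G} (h : B2R T z)
    (f : Fin 8 → ℕ) (hx : ∀ i t, x (f i) t = z i (if i.val % 2 = 0 then ρ t else t))
    (hc : ∀ i, ct (f i) (f (i + 1)) = [] ∧ ct (f (i + 1)) (f i) = [] ∧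
      ct (f i) (f (i + 2)) = [] ∧ ct (f (i + 2)) (f i) = [] ∧
      ct (f i) (f (i + 3)) = (if i.val % 2 = 0 then [(f (i + 1), 1, 1), (f (i + 2), 1, 2)]
        else [(f (i + 2), 1, 1), (f (i + 1), 2, 1)]) ∧
      ct (f (i + 3)) (f i) = (if i.val % 2 = 0 then [(f (i + 1), 1, 1), (f (i + 2), 2, 1)]
        else [(f (i + 2), 1, 1), (f (i + 1), 1, 2)]))
    (i j : Fin 8) (h1 : j ≠ i) (h2 : j ≠ i + 4) : Rel x (f i) (f j) := by
  have hσ : ∀ a, ρ (a ^ 2) = T.σ a := fun a => T.σ.injective (by rw [hρ, T.sq])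
  have k : ∀ i a b, z (i + 3) b * z i a =
      z i a * z (i + 3) b * (z (i + 1) (b * T.σ a) * z (i + 2) (a * T.σ b)) ∧ z i a * z (i + 3) b =
      z (i + 3) b * z i a * (z (i + 1) (b * T.σ a) * z (i + 2) (a * T.σ b)) := fun i a b => by
    have c12 : Commute (z (i + 1) (b * T.σ a)) (z (i + 2) (a * T.σ b)) := by
      have := h.c1 (i + 1) (b * T.σ a) (a * T.σ b)
      rwa [add_assoc] at this
    refine swap_of (h.c3 i a b) ((h.c1 i _ _).mul_right (h.c2 i _ _)) (Commute.mul_right ?_ ?_) ?_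
    · have := (h.c2 (i + 1) (b * T.σ a) b).symm
      rwa [add_assoc] at this
    · have := (h.c1 (i + 2) (a * T.σ b) b).symm
      rwa [add_assoc] at this
    · rw [← c12.mul_mul_mul_comm, (sq_of (h.add _) _).2, (sq_of (h.add _) _).2, mul_one]
  have c12 : ∀ i a b, z (i + 2) a * z (i + 1) b = z (i + 1) b * z (i + 2) a := fun i a b => by
    have := h.c1 (i + 1) b a
    rw [add_assoc] at this
    exact this.eq.symm
  have par : ∀ i : Fin 8, (i.val % 2 = 0 ∧ (i + 1).val % 2 = 1 ∧ (i + 2).val % 2 = 0 ∧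
      (i + 3).val % 2 = 1) ∨ (i.val % 2 = 1 ∧ (i + 1).val % 2 = 0 ∧ (i + 2).val % 2 = 1 ∧
      (i + 3).val % 2 = 0) := by decide
  rcases (by decide : ∀ i j : Fin 8, j ≠ i → j ≠ i + 4 →
    j = i + 1 ∨ i = j + 1 ∨ j = i + 2 ∨ i = j + 2 ∨ j = i + 3 ∨ i = j + 3) i j h1 h2 with
    rfl | rfl | rfl | rfl | rfl | rfl
  · exact relC (hc i).1 fun t u => by rw [hx, hx]; exact h.c1 i _ _
  · exact relC (hc j).2.1 fun t u => by rw [hx, hx]; exact (h.c1 j _ _).symm
  · exact relC (hc i).2.2.1 fun t u => by rw [hx, hx]; exact h.c2 i _ _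
  · exact relC (hc j).2.2.2.1 fun t u => by rw [hx, hx]; exact (h.c2 j _ _).symm
  · intro t u
    rw [(hc i).2.2.2.2.1]
    rcases par i with ⟨a, b, c, d⟩ | ⟨a, b, c, d⟩
    · simpa [hx, a, b, c, d, hρ, ← hσ, mul_comm t u] using (k i (ρ t) u).1
    · simpa [hx, a, b, c, d, hρ, ← hσ, c12, mul_comm (ρ t ^ 2)] using (k i t (ρ u)).1
  · intro t u
    rw [(hc j).2.2.2.2.2]
    rcases par j with ⟨a, b, c, d⟩ | ⟨a, b, c, d⟩
    · simpa [hx, a, b, c, d, hρ, ← hσ, mul_comm (ρ t ^ 2)] using (k j (ρ u) t).2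
    · simpa [hx, a, b, c, d, hρ, ← hσ, c12, mul_comm t u] using (k j u (ρ t)).2

def fA : Fin 6 → ℕ := ![25, 26, 24, 22, 21, 23]
def fC : Fin 6 → ℕ := ![27, 34, 33, 20, 13, 14]
def fB : Fin 8 → ℕ := ![25, 28, 30, 27, 22, 19, 17, 20]

/-- the roots of a standard subsystem of rank two -/
def RL (i j : ℕ) : List ℕ := (List.range 48).filter fun r =>
  (List.range 4).all fun k => k = i ∨ k = j ∨ (chevF4.coroot.getD r #[]).getD k 0 = 0

theorem mem_RL {i j : Fin 4} {r : Rt chevF4} (h : r ∈ (H64.wdata chevF4).PhiJ {i, j}) :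
    r.val ∈ RL i j := by
  obtain ⟨h1, -, -, h2⟩ := inRankTwoSub_iff.2 h
  simp only [RL, List.mem_filter, List.mem_range, List.all_eq_true, decide_eq_true_eq]
  refine ⟨h1, fun k hk => ?_⟩
  by_contra c
  push Not at c
  exact c.2.2 (h2 k hk c.1 c.2.1)

theorem tab1 : ∀ i j : Fin 4, ∀ r ∈ RL i j, (∃ a, r = fA a) ∨ (∃ a, r = fC a) ∨ ∃ a, r = fB a := by
  decide +kernel

theorem tab2 : ∀ i j : Fin 4, ∀ r ∈ RL i j, ∀ s ∈ RL i j, s ≠ r → s ≠ chevF4.neg r →
    (∃ a b, b ≠ a ∧ b ≠ a + 3 ∧ (r = fA a ∧ s = fA b ∨ r = fC a ∧ s = fC b)) ∨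
    (∃ a b, b ≠ a ∧ b ≠ a + 4 ∧ r = fB a ∧ s = fB b) ∨ (ct r s = [] ∧
      ∃ a b, (a = 2 ∨ a = 5) ∧ (b = 0 ∨ b = 2 ∨ b = 3 ∨ b = 5) ∧ (r = fA a ∧ s = fC b ∨
        s = fA a ∧ r = fC b ∨ r = fC a ∧ s = fA b ∨ s = fC a ∧ r = fA b)) := by
  decide +kernel

theorem tab3 : (∀ a, chevF4.InRankTwoSub 2 3 (fA a)) ∧ (∀ a, chevF4.InRankTwoSub 0 1 (fC a)) ∧
    ∀ a, chevF4.InRankTwoSub 1 2 (fB a) := by
  unfold ChevalleyDatum.InRankTwoSub
  refine ⟨?_, ?_, ?_⟩ <;> decide +kernel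

theorem tab4 : ∀ i : Fin 4, ((∃ a, chevF4.simple i = fA a) ∨ ∃ a, chevF4.simple i = fC a) ∧
    ((∃ a, chevF4.neg (chevF4.simple i) = fA a) ∨ ∃ a, chevF4.neg (chevF4.simple i) = fC a) := by
  decide +kernel

/-- the root elements -/
def X (ρ : K →+* K) (zA zC : Fin 6 → K → G) (z : Fin 8 → K → G) : ℕ → K → G
  | 25 => fun t => zA 0 (ρ t) | 26 => fun t => zA 1 (ρ t) | 24 => fun t => zA 2 (ρ t)
  | 22 => fun t => zA 3 (ρ t) | 21 => fun t => zA 4 (ρ t) | 23 => fun t => zA 5 (ρ t)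
  | 27 => zC 0 | 34 => zC 1 | 33 => zC 2 | 20 => zC 3 | 13 => zC 4 | 14 => zC 5
  | 28 => z 1 | 30 => fun t => z 2 (ρ t) | 19 => z 5 | 17 => fun t => z 6 (ρ t)
  | _ => fun _ => 1

theorem GG_le_simple {D : ChevalleyDatum} [RS D] {w : ℕ → K → G} (hB : StB D w) {S : Subgroup G}
    (h : ∀ (i : Fin D.rank) t, w (D.simple i) t ∈ S ∧ w (D.neg (D.simple i)) t ∈ S) : GG D w ≤ S :=
  H64.gen_le fun r _ => (hB.rgd.X_le_gen (A := fun _ => S) (J := Set.univ) (r := r)
    (fun i => (Subgroup.closure_le _).2 (by rintro _ ⟨t, rfl⟩; exact (h i t).1)) (fun i => by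
      change nn D w (D.simple i) 1 ∈ _
      rw [nn_eq]
      exact mul_mem (mul_mem (h i _).1 (h i _).2) (h i _).1)
    ((H64.wdata D).PhiJ_univ.ge (Set.mem_univ r))).trans (H64.gen_le fun _ _ => le_rfl)

theorem exists_equiv [Finite K] (h : ∃ x : K, x ≠ 0 ∧ x ≠ 1) :
    Nonempty (chevF4.SteinbergCover K ≃* chevF4.group K) := by
  obtain ⟨e, -⟩ := Cfsg.Agent.S2397.result (K := K) chevF4 (by simp) fun _ => h
  obtain ⟨θ, h1, h2, -⟩ := Cfsg.Agent.S1077.result (K := K) chevF4 (by simp)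
  rw [Cfsg.Agent.S1078.result _ (by simp), MonoidHom.ker_eq_bot_iff] at h2
  exact ⟨e.trans (MulEquiv.ofBijective θ ⟨h2, h1⟩)⟩

theorem jobCT : JobCT.{u, v} := by
  intro K _ _ _ T G _ zA zC z hK hA hC hB e1 e2 e3 e4 hc h1
  let σ : K ≃+* K := RingEquiv.ofBijective T.σ (Finite.injective_iff_bijective.1 T.σ.injective)
  let ρ : K →+* K := σ.symm
  have hρ : ∀ a, T.σ (ρ a) = a := σ.apply_symm_apply
  have hρ' : ∀ a, ρ (T.σ a) = a := σ.symm_apply_apply
  let x := X ρ zA zC z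
  have xA : ∀ i, x (fA i) = fun t => zA i (ρ t) := fun i => by fin_cases i <;> rfl
  have xC : ∀ i, x (fC i) = zC i := fun i => by fin_cases i <;> rfl
  have xB : ∀ i t, x (fB i) t = z i (if i.val % 2 = 0 then ρ t else t) := fun i t => by
    fin_cases i
    exacts [congrFun e1 _, rfl, rfl, congrFun e3 _, congrFun e2 _, rfl, rfl, congrFun e4 _]
  have hA' : A2R fun i t => zA i (ρ t) := ⟨fun i a b => by rw [map_add, hA.add],
    fun i a b => hA.c1 i _ _, fun i a b => by rw [hA.c2, map_mul]⟩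
  have h0 : ∀ c, x c 0 = 1 := fun c => by
    have a := fun i => (sq_of (z := fun t => zA i (ρ t)) (hA'.add i) 0).1
    have b := fun i => (sq_of (hC.add i) 0).1
    have d := fun i => (sq_of (hB.add i) 0).1
    unfold x X
    split <;> first | exact a _ | exact b _ | exact d _ | rfl | exact (congrArg _ (map_zero ρ)).trans (d _)
  have hJ : ∀ i j, StJ chevF4 {i, j} x := fun i j => by
    refine ⟨fun r hr t u => ?_, fun r s hr hs n1 n2 t u => ?_⟩
    · rcases tab1 i j r (mem_RL hr) with ⟨a, e⟩ | ⟨a, e⟩ | ⟨a, e⟩ <;> rw [e]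
      · rw [xA]; exact (hA'.add a t u).symm
      · rw [xC]; exact (hC.add a t u).symm
      · rw [xB, xB, xB, ← hB.add]; split_ifs <;> simp
    · rw [wd_ct h0]
      revert t u
      change Rel x r s
      rcases tab2 i j r (mem_RL hr) s (mem_RL hs) (fun e => n1 (Fin.ext e)) (fun e => n2 (Fin.ext e))
        with ⟨a, b, p, q, ⟨e, f⟩ | ⟨e, f⟩⟩ | ⟨a, b, p, q, e, f⟩ | ⟨n, a, b, p, q, w⟩
      · rw [e, f]; exact relA hA' fA xA (by decide +kernel) a b p q
      · rw [e, f]; exact relA hC fC xC (by decide +kernel) a b p q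
      · rw [e, f]; exact relB hρ hB fB xB (by decide +kernel) a b p q
      · have k := hc a (by simpa using p) b (by simpa using q)
        refine relC n fun t u => ?_
        rcases w with ⟨e, f⟩ | ⟨e, f⟩ | ⟨e, f⟩ | ⟨e, f⟩ <;> rw [e, f, xA, xC]
        exacts [(k _ _).1, (k _ _).1.symm, (k _ _).2, (k _ _).2.symm]
  have hy := stB_xU chevF4 K
  obtain ⟨w, hw, w1, w2⟩ := exists_st_of_ct (x := fun r t => (x r t, xU chevF4 K r t)) (fun i j =>
    ⟨fun r hr t u => Prod.ext ((hJ i j).add r hr t u) (hy.toSt.add r r.2 t u),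
      fun r s hr hs n1 n2 t u => Prod.ext
        (((hJ i j).comm r s hr hs n1 n2 t u).trans (by
          rw [Prod.fst_mul, ← MonoidHom.coe_fst, map_wd]; rfl))
        ((hy.toSt.comm r s r.2 s.2 (fun e => n1 (Fin.ext e)) (fun e => n2 (Fin.ext e)) t u).trans (by
          rw [Prod.snd_mul, ← MonoidHom.coe_snd, map_wd]; rfl))⟩)
    (MonoidHom.snd _ _) (fun _ _ _ _ _ => rfl) hy
  have w3 : ∀ {i j r : ℕ}, chevF4.InRankTwoSub i j r → ∀ t, (w r t).1 = x r t := fun {i j r} h t =>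
    congrArg Prod.fst (w2 ⟨i, h.2.1⟩ ⟨j, h.2.2.1⟩ ⟨r, h.1⟩ (inRankTwoSub_iff.1 h) t)
  have hz := hw.map (MonoidHom.fst _ _)
  set S := Subgroup.closure {g | (∃ i x, g = zA i x) ∨ (∃ i x, g = zC i x) ∨ ∃ i x, g = z i x}
  have hS : GG chevF4 (fun r t => MonoidHom.fst _ _ (w r t)) = S := by
    refine le_antisymm (GG_le fun r t => ?_) ((Subgroup.closure_le _).2 ?_)
    · have hB := hw.stB_of_map _ w1 hy
      have k : ∀ r, ((∃ a, r = fA a) ∨ ∃ a, r = fC a) → ∀ t, w r t ∈ S.comap (MonoidHom.fst _ _) := by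
        rintro _ (⟨a, rfl⟩ | ⟨a, rfl⟩) t
        · change (w _ t).1 ∈ S
          rw [w3 (tab3.1 a), xA]; exact Subgroup.subset_closure (.inl ⟨_, _, rfl⟩)
        · change (w _ t).1 ∈ S
          rw [w3 (tab3.2.1 a), xC]; exact Subgroup.subset_closure (.inr (.inl ⟨_, _, rfl⟩))
      exact GG_le_simple hB (S := S.comap (MonoidHom.fst _ _))
        (fun i t => ⟨k _ (tab4 i).1 t, k _ (tab4 i).2 t⟩) (x_mem_GG r t)
    · have k : ∀ {i j r : ℕ}, chevF4.InRankTwoSub i j r → ∀ t,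
          x r t ∈ GG chevF4 (fun r t => MonoidHom.fst _ _ (w r t)) := fun {i j r} h t =>
        w3 h t ▸ x_mem_GG (x := fun r t => MonoidHom.fst _ _ (w r t)) ⟨r, h.1⟩ t
      rintro _ (⟨a, t, rfl⟩ | ⟨a, t, rfl⟩ | ⟨a, t, rfl⟩)
      · simpa [xA, hρ'] using k (tab3.1 a) (T.σ t)
      · simpa [xC] using k (tab3.2.1 a) t
      · have := k (tab3.2.2 a) (if a.val % 2 = 0 then T.σ t else t)
        rw [xB] at this
        split_ifs at this
        · rwa [hρ'] at this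
        · exact this
  obtain ⟨e⟩ := exists_equiv (K := K) ((exists_s (T := T) hK).imp fun s hs =>
    ⟨fun e => hs (by rw [e, map_zero]), fun e => hs (by rw [e, map_one])⟩)
  have := (Cfsg.Agent.S1054.result (F := K) chevF4 (by simp)).1
  have := e.isSimpleGroup
  have hi : Function.Injective hz.coverHom := by
    rw [← MonoidHom.ker_eq_bot_iff]
    refine (IsSimpleGroup.eq_bot_or_eq_top_of_normal _ inferInstance).resolve_right fun c => h1 ?_
    have := hz.coverHom_gen ⟨25, by decide⟩ 1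
    rw [MonoidHom.mem_ker.1 (c ▸ Subgroup.mem_top _)] at this
    rw [← e1, ← map_one ρ]
    exact ((this.trans (w3 (tab3.1 0) 1)).trans (congrFun (xA 0) 1)).symm
  exact ⟨((MulEquiv.subgroupCongr (hS.symm.trans
    (range_eq_GG _ hz.coverHom_gen (GG_scGen _ K)).symm)).trans
      (MonoidHom.ofInjective hi).symm).trans e⟩

end H71.SRCT
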