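import Cfsg.Agent.H65.SRAux
import Cfsg.Agent.H14.OcBC
import Cfsg.Agent.H19.ParTYB
import Cfsg.Agent.Rz.H65_SR_sU_eq_8
import Cfsg.Agent.Rz.H65_SR_wt_eq_8

/-! STD-R, job LB, part 1: the torus. -/

set_option autoImplicit false
set_option linter.unusedSectionVars false
set_option linter.unusedSimpArgs false

namespace H71.SRLB

open Subgroup H63.Oc H64.SG H65.SR
open scoped commutatorElement

variable {K : Type*} [Field K] [CharP K 2] {T : TF K}

theorem ind8 {P : ℕ → Prop} (h : ∀ i, 1 ≤ i → i ≤ 8 → P i) (h0 : P 8 → P 0)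
    (h9 : ∀ n, P 8 → P (n + 9)) (i : ℕ) : P i := by
  rcases Nat.lt_or_ge i 9 with a | a
  · rcases Nat.eq_zero_or_pos i with rfl | b
    · exact h0 (h 8 (by norm_num) le_rfl)
    · exact h i b (by omega)
  · obtain ⟨n, rfl⟩ := Nat.exists_eq_add_of_le' a
    exact h9 n (h 8 (by norm_num) le_rfl)

theorem wt_mul (a a' b b' : K) (i : ℕ) :
    wt T.σ (a * a') (b * b') i = wt T.σ a b i * wt T.σ a' b' i := by
  unfold wt
  split <;> (try simp only [map_mul]) <;> ring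

theorem wt_one (i : ℕ) : wt T.σ (1 : K) 1 i = 1 := by
  unfold wt
  split <;> simp

variable (T) in
/-- the weights as characters -/
def wh (i : ℕ) : Kˣ × Kˣ →* K where
  toFun p := wt T.σ (p.1 : K) p.2 i
  map_one' := wt_one i
  map_mul' _ _ := wt_mul _ _ _ _ i

theorem wt_w1 (p : Kˣ × Kˣ) {i : ℕ} (h1 : 2 ≤ i) (h2 : i ≤ 8) :
    wh T i (w1 p) = wh T (10 - i) p := by
  have a := p.1.ne_zero
  have s := sig_ne (T := T) a
  interval_cases i <;> simp [wh, wt, w1, T.sq] <;> field_simp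

theorem wt_w8 (p : Kˣ × Kˣ) {i : ℕ} (h1 : 1 ≤ i) (h2 : i ≤ 7) :
    wh T i (w8 T p) = wh T (8 - i) p := by
  have a := p.2.ne_zero
  have s := sig_ne (T := T) a
  interval_cases i <;> simp [wh, wt, w8, T.sq] <;> field_simp

theorem w1_w1 (p : Kˣ × Kˣ) : w1 (w1 p) = p := by ext <;> simp [w1]

theorem w8_w8 (p : Kˣ × Kˣ) : w8 T (w8 T p) = p := by
  have a := p.2.ne_zero
  have s := sig_ne (T := T) a
  ext <;> simp [w8]
  field_simp

/-- two different weights have trivial common kernel -/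
def Sep (T : TF K) (i : ℕ) : Prop :=
  ∀ p, wh T i p = 1 → ∀ j, 1 ≤ j → j ≤ 8 → j ≠ i → wh T j p = 1 → p = 1

theorem pw1 {x : K} (hx : x ≠ 0) (i j k : ℕ) (hk : ((i : ℤ) ^ 2 - 2 * (j : ℤ) ^ 2).natAbs = 2 ^ k)
    (h : x ^ i * T.σ x ^ j = 1) : x = 1 := eq_one_of_pw (T := T) hx k hk (by exact_mod_cast h)

theorem sep1 : Sep T 1 := fun p h j h1 h2 h3 e => by
  have a : (p.1 : K) = 1 := h
  have b := p.2.ne_zero
  suffices (p.2 : K) = 1 from Prod.ext (Units.ext a) (Units.ext this)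
  interval_cases j <;> simp [wh, wt, a] at e h3
  · rw [e]; rfl
  · exact pw1 (T := T) b 2 1 1 (by norm_num) (by simpa using e)
  · exact nu_eq_one e
  · exact pw1 (T := T) b 2 2 2 (by norm_num) e
  · exact nu_eq_one e
  · exact pw1 (T := T) b 2 1 1 (by norm_num) (by simpa using e)
  · rw [e]; rfl

theorem sep8 : Sep T 8 := fun p h j h1 h2 h3 e => by
  have a : (p.2 : K) = 1 := h
  suffices (p.1 : K) = 1 from Prod.ext (Units.ext this) (Units.ext a)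
  interval_cases j <;> simp [wh, wt, a] at e h3
  · rw [e]; rfl
  · rw [e]; rfl
  · exact nu_eq_one e
  · exact T.σ.injective (e.trans (map_one _).symm)
  · exact nu_eq_one e
  · rw [e]; rfl
  · rw [e]; rfl

theorem Sep.r1 {i : ℕ} (h1 : 2 ≤ i) (h2 : i ≤ 8) (h : Sep T i) : Sep T (10 - i) :=
  fun p e j a b c f => by
  have : w1 p = 1 := by
    rcases Nat.eq_or_lt_of_le a with rfl | a'
    · exact h _ (by rw [wt_w1 p h1 h2, e]) 1 le_rfl b (by omega) (by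
        have : (p.1 : K) = 1 := f
        simp [wh, wt, w1, this])
    · exact h _ (by rw [wt_w1 p h1 h2, e]) (10 - j) (by omega) (by omega) (by omega) (by
        rw [wt_w1 p (by omega) (by omega), show 10 - (10 - j) = j by omega, f])
  rw [← w1_w1 p, this]; simp [w1]

theorem Sep.r8 {i : ℕ} (h1 : 1 ≤ i) (h2 : i ≤ 7) (h : Sep T i) : Sep T (8 - i) :=
  fun p e j a b c f => by
  have : w8 T p = 1 := by
    rcases Nat.eq_or_lt_of_le b with rfl | b'
    · exact h _ (by rw [wt_w8 p h1 h2, e]) 8 a le_rfl (by omega) (by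
        have : (p.2 : K) = 1 := f
        simp [wh, wt, w8, this])
    · exact h _ (by rw [wt_w8 p h1 h2, e]) (8 - j) (by omega) (by omega) (by omega) (by
        rw [wt_w8 p (by omega) (by omega), show 8 - (8 - j) = j by omega, f])
  rw [← w8_w8 (T := T) p, this]; simp [w8]

theorem sep {i : ℕ} (h1 : 1 ≤ i) (h2 : i ≤ 8) : Sep T i := by
  have a7 : Sep T 7 := sep1.r8 (by norm_num) (by norm_num)
  have a3 : Sep T 3 := a7.r1 (by norm_num) (by norm_num)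
  have a2 : Sep T 2 := sep8.r1 (by norm_num) (by norm_num)
  have a6 : Sep T 6 := a2.r8 (by norm_num) (by norm_num)
  interval_cases i
  exacts [sep1, a2, a3, a6.r1 (by norm_num) (by norm_num), a3.r8 (by norm_num) (by norm_num), a6, a7,
    sep8]

/-- the diagonal action in terms of the weights -/
theorem dg_eq (a b : K) (c : Co T) : dg T a b c = ⟨wt T.σ a b 1 * c.a1, wt T.σ a b 2 * c.b2,
    wt T.σ a b 2 * T.σ (wt T.σ a b 2) * c.a2, wt T.σ a b 3 * c.a3, wt T.σ a b 4 * c.b4,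
    wt T.σ a b 4 * T.σ (wt T.σ a b 4) * c.a4, wt T.σ a b 5 * c.a5, wt T.σ a b 6 * c.b6,
    wt T.σ a b 6 * T.σ (wt T.σ a b 6) * c.a6, wt T.σ a b 7 * c.a7, wt T.σ a b 8 * c.b8,
    wt T.σ a b 8 * T.σ (wt T.σ a b 8) * c.a8⟩ := by
  ext <;> simp [wt, T.sq] <;> left <;> ring

theorem dg_fix {a b : K} {i : ℕ} (h : wt T.σ a b i = 1) {c : Co T} (hc : c ∈ sU T i) :
    dg T a b c = c := by
  revert h hc
  refine ind8 (P := fun i => wt T.σ a b i = 1 → c ∈ sU T i → dg T a b c = c) (fun i h1 h2 h hc => ?_)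
    id (fun _ => id) i
  rw [dg_eq]
  interval_cases i <;> simp only [sU] at hc <;> ext <;> simp_all

theorem mem_of_fix {p : Kˣ × Kˣ} (hp : p ≠ 1) {i : ℕ} (h : wh T i p = 1) {c : Co T}
    (e : dg T p.1 p.2 c = c) : c ∈ sU T i := by
  revert h
  refine ind8 (P := fun i => wh T i p = 1 → c ∈ sU T i) (fun i h1 h2 h => ?_) id (fun _ => id) i
  have k : ∀ j, 1 ≤ j → j ≤ 8 → j ≠ i → ∀ x : K, (wt T.σ (p.1 : K) p.2 j * x = x → x = 0) ∧
      (wt T.σ (p.1 : K) p.2 j * T.σ (wt T.σ (p.1 : K) p.2 j) * x = x → x = 0) := fun j a b d x => by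
    have n : wt T.σ (p.1 : K) p.2 j ≠ 1 := fun f => hp (sep h1 h2 p h j a b d f)
    exact ⟨fun f => by_contra fun x0 => n (mul_right_cancel₀ x0 (f.trans (one_mul x).symm)),
      fun f => by_contra fun x0 => n (nu_eq_one (mul_right_cancel₀ x0 (f.trans (one_mul x).symm)))⟩
  rw [dg_eq] at e
  have k1 := fun n => (k 1 (by norm_num) (by norm_num) n _).1 (congrArg Co.a1 e)
  have k2 := fun n => (k 2 (by norm_num) (by norm_num) n _).1 (congrArg Co.b2 e)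
  have l2 := fun n => (k 2 (by norm_num) (by norm_num) n _).2 (congrArg Co.a2 e)
  have k3 := fun n => (k 3 (by norm_num) (by norm_num) n _).1 (congrArg Co.a3 e)
  have k4 := fun n => (k 4 (by norm_num) (by norm_num) n _).1 (congrArg Co.b4 e)
  have l4 := fun n => (k 4 (by norm_num) (by norm_num) n _).2 (congrArg Co.a4 e)
  have k5 := fun n => (k 5 (by norm_num) (by norm_num) n _).1 (congrArg Co.a5 e)
  have k6 := fun n => (k 6 (by norm_num) (by norm_num) n _).1 (congrArg Co.b6 e)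
  have l6 := fun n => (k 6 (by norm_num) (by norm_num) n _).2 (congrArg Co.a6 e)
  have k7 := fun n => (k 7 (by norm_num) (by norm_num) n _).1 (congrArg Co.a7 e)
  have k8 := fun n => (k 8 (by norm_num) (by norm_num) n _).1 (congrArg Co.b8 e)
  have l8 := fun n => (k 8 (by norm_num) (by norm_num) n _).2 (congrArg Co.a8 e)
  clear k e h
  interval_cases i <;> simp_all [sU]

theorem wt4_iff {p : Kˣ × Kˣ} : wh T 4 p = 1 ↔ p ∈ T0 T := by
  have : chi4 T p.1 p.2 = wh T 4 p * T.σ (wh T 4 p) := by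
    simp only [wh, wt, chi4, MonoidHom.coe_mk, OneHom.coe_mk, map_mul, T.sq]; ring
  rw [mem_T0, this]
  exact ⟨fun h => by rw [h, map_one, mul_one], nu_eq_one⟩

variable {G : Type*} [Group G] [Finite G] (A : AD T G)

theorem h_inj {p : Kˣ × Kˣ} (h : A.h p = 1) : p = 1 := by
  have e1 := h_x1 A p 1
  have e2 := h_y8 A p 1
  rw [h, one_mul, inv_one, mul_one, ι_inj] at e1 e2
  exact Prod.ext (Units.ext (by simpa using (congrArg Co.a1 e1).symm))
    (Units.ext (by simpa using (congrArg Co.b8 e2).symm))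

theorem h_ns {X : Subgroup (Co T)} (h : ∀ a b, ∀ c ∈ X, dg T a b c ∈ X) : A.h.range ≤ Ns (A.im X) := by
  rintro _ ⟨p, rfl⟩
  refine mem_ns_of ?_
  rintro _ ⟨c, hc, rfl⟩
  exact ⟨_, h _ _ c hc, (A.tor.h_conj p c).symm⟩

theorem hN : ∀ X ∈ [sZ T, sW T, sA T, sV0 T, sV T, sR T, sA7 T, sQ T, sQ1 T, sU27 T, sU37 T, sZ2 T,
    sZ8 T, ⊤], A.h.range ≤ Ns (A.im X) := fun X hX => h_ns A fun a b c hc => by
  simp only [List.mem_cons, List.not_mem_nil, or_false] at hX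
  rcases hX with rfl | rfl | rfl | rfl | rfl | rfl | rfl | rfl | rfl | rfl | rfl | rfl | rfl | rfl <;>
    simp_all

theorem hU (i : ℕ) : A.h.range ≤ Ns (A.im (sU T i)) := h_ns A fun a b c => by
  refine ind8 (P := fun i => c ∈ sU T i → dg T a b c ∈ sU T i) (fun i h1 h2 hc => ?_) id
    (fun _ => id) i
  interval_cases i <;> simp_all [sU]

theorem hC : A.h.range ≤ Ns A.C := by
  rintro _ ⟨p, rfl⟩
  refine mem_ns_of fun y hy => (closure_le (A.C.comap (MulAut.conj (A.h p)).toMonoidHom)).2 ?_ hy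
  rintro _ ((⟨c, rfl⟩ | ⟨r, rfl⟩) | rfl)
  · change A.h p * A.ι c * (A.h p)⁻¹ ∈ A.C
    rw [A.tor.h_conj]; exact A.ι_mem _
  · change A.h p * A.h0 r * (A.h p)⁻¹ ∈ A.C
    rw [← A.tor.h_h0, H_comm A ⟨p, rfl⟩ ⟨_, rfl⟩, mul_inv_cancel_right, A.tor.h_h0]
    exact A.h0_mem r
  · change A.h p * A.n8 * (A.h p)⁻¹ ∈ A.C
    have m : p * w8 T p⁻¹ ∈ T0 T := wt4_iff.1 (by
      rw [map_mul, wt_w8 _ (by norm_num) (by norm_num), ← map_mul, mul_inv_cancel, map_one])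
    have := mul_mem (A.h0_mem ⟨_, m⟩) A.n8_mem
    rwa [← A.tor.h_h0, map_mul, ← A.tor.n8_h, map_inv, mul_assoc, mul_assoc _ A.n8, A.n8_sq, mul_one,
      ← mul_assoc] at this

theorem mem_TT (i : ℕ) (g : G) : g ∈ TT A i ↔ ∃ p : Kˣ × Kˣ, wt T.σ (p.1 : K) p.2 i = 1 ∧ g = A.h p := by
  refine ⟨fun hg => ?_, fun h => subset_closure h⟩
  obtain ⟨p, hp, rfl⟩ := (closure_le ((wh T i).ker.map A.h)).2
    (by rintro _ ⟨p, hp, rfl⟩; exact ⟨p, hp, rfl⟩) hg
  exact ⟨p, hp, rfl⟩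

theorem tt4 : TT A 4 = A.h0.range := by
  ext g
  rw [mem_TT]
  exact ⟨fun ⟨p, hp, e⟩ => ⟨⟨p, wt4_iff.1 hp⟩, (A.tor.h_h0 _).symm.trans e.symm⟩,
    fun ⟨p, e⟩ => ⟨p, wt4_iff.2 p.2, e.symm.trans (A.tor.h_h0 _).symm⟩⟩

theorem ttU (i : ℕ) : TT A i ≤ Cs (A.im (sU T i)) := fun g hg => by
  obtain ⟨p, hp, rfl⟩ := (mem_TT A i g).1 hg
  refine mem_Cs.2 ?_
  rintro _ ⟨c, hc, rfl⟩
  have := A.tor.h_conj p c
  rw [dg_fix hp hc] at this
  exact (mul_inv_eq_iff_eq_mul.1 this).symm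

theorem exT [Fintype K] (hK : 8 ≤ Fintype.card K) (i : ℕ) : ∃ h ∈ TT A i, h ≠ 1 := by
  classical
  by_contra c
  push Not at c
  have := Fintype.card_le_of_injective _ ((injective_iff_map_eq_one (wh T i)).2 fun p hp =>
    h_inj A (c _ (h_mem_TT A hp)))
  rw [Fintype.card_prod, Fintype.card_units] at this
  obtain ⟨n, hn⟩ := Nat.exists_eq_add_of_le' hK
  rw [hn, show n + 8 - 1 = n + 7 from rfl] at this
  nlinarith

theorem cU (i : ℕ) (h : G) (hh : h ∈ TT A i) (h1 : h ≠ 1) : A.S ⊓ Cz h = A.im (sU T i) := by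
  refine le_antisymm ?_ (le_inf (im_le_S A _) fun g hg => mem_Cz.2 (mem_Cs.1 (ttU A i hh) g hg))
  obtain ⟨p, hp, rfl⟩ := (mem_TT A i h).1 hh
  rintro _ ⟨⟨c, rfl⟩, e⟩
  refine (ι_mem_im A).2 (mem_of_fix (p := p) (fun f => h1 (by rw [f, map_one])) hp (A.inj ?_))
  rw [← A.tor.h_conj, ← mem_Cz.1 e, mul_inv_cancel_right]

theorem cT [Fintype K] (hK : 8 ≤ Fintype.card K) (i : ℕ) : A.S ⊓ Cs (TT A i) = A.im (sU T i) := by
  obtain ⟨h, hh, h1⟩ := exT A hK i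
  refine le_antisymm (fun g hg => ?_) (le_inf (im_le_S A _) (cs_symm (ttU A i)))
  rw [← cU A i h hh h1]
  exact ⟨hg.1, mem_Cz.2 (mem_Cs.1 hg.2 h hh).symm⟩

theorem tt1 (i : ℕ) (h1 : 2 ≤ i) (h2 : i ≤ 8) : cjs A.n1 (TT A i) = TT A (10 - i) := by
  ext g
  rw [mem_cjs1, mem_TT, mem_TT]
  constructor
  · rintro ⟨p, hp, e⟩
    refine ⟨w1 p, ?_, by rw [← A.n1_h, ← e, n1_cj]⟩
    have := wt_w1 (T := T) (w1 p) h1 h2
    rw [w1_w1] at this
    exact this.symm.trans hp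
  · rintro ⟨p, hp, rfl⟩
    exact ⟨w1 p, (wt_w1 p h1 h2).trans hp, A.n1_h p⟩

theorem tt8 (i : ℕ) (h1 : 1 ≤ i) (h2 : i ≤ 7) : cjs A.n8 (TT A i) = TT A (8 - i) := by
  ext g
  rw [mem_cjs8, mem_TT, mem_TT]
  constructor
  · rintro ⟨p, hp, e⟩
    refine ⟨w8 T p, ?_, by rw [← A.tor.n8_h, ← e, n8_cj]⟩
    have := wt_w8 (T := T) (w8 T p) h1 h2
    rw [w8_w8] at this
    exact this.symm.trans hp
  · rintro ⟨p, hp, rfl⟩
    exact ⟨w8 T p, (wt_w8 p h1 h2).trans hp, A.tor.n8_h p⟩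

theorem tt11 : A.n1 ∈ Cs (TT A 1) := mem_Cs.2 fun g hg => by
  obtain ⟨p, hp, rfl⟩ := (mem_TT A 1 g).1 hg
  have a : p.1 = 1 := Units.ext hp
  have := A.n1_h p
  rw [show w1 p = p by ext <;> simp [w1, a]] at this
  rw [← n1_n1 A (A.h p * A.n1), ← mul_assoc A.n1 (A.h p), this]

theorem tt88 : A.n8 ∈ Cs (TT A 8) := mem_Cs.2 fun g hg => by
  obtain ⟨p, hp, rfl⟩ := (mem_TT A 8 g).1 hg
  have a : p.2 = 1 := Units.ext hp
  have := A.tor.n8_h p
  rw [show w8 T p = p by ext <;> simp [w8, a]] at this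
  rw [← n8_n8 A (A.h p * A.n8), ← mul_assoc A.n8 (A.h p), this]

theorem uu1 (i : ℕ) (h1 : 2 ≤ i) (h2 : i ≤ 8) :
    cjs A.n1 (A.im (sU T i)) = A.im (sU T (10 - i)) := by
  interval_cases i <;> exact cjs1_im A (fun c => by simp_all [sU]) (fun c => by simp_all [sU])
    (fun c => by simp_all [sU, Co.nu1]) (fun c => by simp_all [sU, Co.nu1])

theorem uu8 (i : ℕ) (h1 : 1 ≤ i) (h2 : i ≤ 7) :
    cjs A.n8 (A.im (sU T i)) = A.im (sU T (8 - i)) := by
  interval_cases i <;> exact cjs8_im A (fun c => by simp_all [sU]) (fun c => by simp_all [sU])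
    (fun c => by simp_all [sU, Co.nu8]) (fun c => by simp_all [sU, Co.nu8])

theorem hn (c : Kˣ) : A.ι (x1 T c) * (A.n1 * A.ι (x1 T (c⁻¹ : Kˣ)) * A.n1) * A.ι (x1 T c) * A.n1 =
    A.h (c ^ 2, c⁻¹) := by
  have e1 := h_x1 A (c, 1) 1
  have e2 := h_x1 A (w1 (c, 1)) 1
  have e3 := A.n1_h (c, 1)⁻¹
  rw [← A.n1_h, mul_inv_rev, mul_inv_rev, n1_inv] at e2
  simp only [w1, mul_one] at e1 e2
  rw [show ((c ^ 2, c⁻¹) : Kˣ × Kˣ) = (c, 1) * w1 (c, 1)⁻¹ by ext <;> simp [w1, sq], map_mul, ← e3,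
    map_inv, ← e1, ← e2]
  have k : ∀ g, A.ι (x1 T 1) * (A.n1 * (A.ι (x1 T 1) * (A.n1 * (A.ι (x1 T 1) * g)))) = A.n1 * g :=
    fun g => by
      conv_rhs => rw [n1_eq A]
      simp only [mul_assoc]
  simp only [mul_assoc, n1_n1, inv_mul_cancel_left, k]

end H71.SRLB
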