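import Cfsg.Agent.H71.SRLB1

/-! STD-R, job LB, part 2: the normal structure of `C`. -/

set_option autoImplicit false
set_option linter.unusedSectionVars false
set_option linter.unusedSimpArgs false

namespace H71.SRLB

open Subgroup H63.Oc H64.SG H65.SR
open H14.Oc (Bo ι_Bo h_Bo nun bruhat' split cjQ cjV mem_V mem_R cm_VQ cm_RV)
open scoped commutatorElement

universe u v

variable {K : Type*} [Field K] [CharP K 2] {T : TF K}

theorem fix0 {s b : K} (hs : T.σ s ≠ s) (h1 : T.σ b = b) (h2 : s * T.σ b = b * T.σ s) : b = 0 := by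
  rw [h1, mul_comm] at h2
  exact by_contra fun b0 => hs (mul_left_cancel₀ b0 h2).symm

theorem triv1 (c : Co T) (a : c ∈ sU T 1) (b : c ∈ sU T 4) : c = 1 := by ext <;> simp_all [sU]

theorem triv8 (c : Co T) (a : c ∈ sU T 8) (b : c ∈ sU T 4) : c = 1 := by ext <;> simp_all [sU]

theorem Z8_le : sZ8 T ≤ sU8 T := fun c => by simp_all

/-- a submodule of `Q / V` -/
theorem irr0 [Finite K] {s : K} (hs : T.σ s ≠ s) {M : Subgroup (Co T)} (hV : sV T ≤ M) (hQ : M ≤ sQ T)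
    (hn : ∀ u, ∀ c ∈ M, u * c * u⁻¹ ∈ M) (hd : ∀ p : T0 T, ∀ c ∈ M, dg T p.1.1 p.1.2 c ∈ M)
    (h8 : ∀ c ∈ M, c.nu8 ∈ M) {c : Co T} (hc : c ∈ M) (hR : c ∉ sR T) : sQ T ≤ M := by
  let P : K → K → K → K → K → Prop := fun a b e f g =>
    ∃ d ∈ M, d.a1 = a ∧ d.b2 = b ∧ d.b4 = e ∧ d.b6 = f ∧ d.a7 = g
  have add : ∀ {a b e f g a' b' e' f' g'}, P a b e f g → P a' b' e' f' g' →
      P (a + a') (b + b') (e + e') (f + f') (g + g') := by
    rintro _ _ _ _ _ _ _ _ _ _ ⟨d, hd, rfl, rfl, rfl, rfl, rfl⟩ ⟨d', hd', rfl, rfl, rfl, rfl, rfl⟩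
    exact ⟨_, mul_mem hd hd', by simp [(hQ hd).1, (hQ hd).2]⟩
  have cx : ∀ {a b e f g} (α : K), P a b e f g → P 0 0 (α * T.σ a) (α * a) (T.σ α * a + α * b) := by
    rintro _ _ _ _ _ α ⟨d, hd, rfl, rfl, rfl, rfl, rfl⟩
    refine ⟨_, mul_mem (hn (x8 T α) d hd) (inv_mem hd), ?_, ?_, ?_, ?_, ?_⟩ <;>
      simp [(hQ hd).1, (hQ hd).2] <;> grind
  have cy : ∀ {e f g}, P 0 0 e f g → P 0 0 0 0 f := by
    rintro _ _ _ ⟨d, hd, a, b, rfl, rfl, rfl⟩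
    refine ⟨_, mul_mem (hn (y8 T 1) d hd) (inv_mem hd), ?_, ?_, ?_, ?_, ?_⟩ <;>
      simp [(hQ hd).1, (hQ hd).2, a, b] <;> grind
  have ch : ∀ {e g} (p : T0 T), P 0 0 e 0 g → P 0 0 e 0 ((p.1.1 : K)⁻¹ * g) := by
    rintro _ _ p ⟨d, h, a, b, rfl, f, rfl⟩
    have a0 := p.1.1.ne_zero
    refine ⟨_, hd p d h, by simp [a], by simp [b], ?_, by simp [f], ?_⟩
    · rw [dg_b4, show T.σ (p.1.1 : K) * (p.1.2 * T.σ p.1.2) = 1 from wt4_iff.2 p.2, one_mul]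
    · rw [dg_a7]; congr 1
      exact eq_inv_of_mul_eq_one_right (by rw [← H19.ParTY.t7 p]; ring)
  have cn : ∀ {a b e f g}, P a b e f g → P g f e b a := by
    rintro _ _ _ _ _ ⟨d, hd, rfl, rfl, rfl, rfl, rfl⟩
    exact ⟨_, h8 d hd, rfl, rfl, rfl, rfl, rfl⟩
  have s0 : s ≠ 0 := by rintro rfl; simp at hs
  have s1 : s + T.σ s ≠ 0 := fun e => hs (by grind)
  have pc : P c.a1 c.b2 c.b4 c.b6 c.a7 := ⟨c, hc, rfl, rfl, rfl, rfl, rfl⟩
  obtain ⟨g, g0, pg⟩ : ∃ g, g ≠ 0 ∧ P 0 0 0 0 g := by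
    by_cases h1 : c.a1 = 0
    · by_cases h2 : c.b2 = 0
      · rw [h1, h2] at pc
        by_cases h3 : c.b6 = 0
        · rw [h3] at pc
          obtain ⟨p, hp, -⟩ := H14.Oc.T0_fst (T := T) (Units.mk0 s s0)⁻¹
          have := add pc (ch p pc)
          rw [hp] at this
          refine ⟨c.a7 + s * c.a7, fun e => hR ?_, by simpa [CharTwo.add_self_eq_zero] using this⟩
          have : c.a7 = 0 := by_contra fun n => hs (by
            have : s = 1 := mul_right_cancel₀ n (by grind)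
            rw [this, map_one])
          simp [h1, h2, h3, this, (hQ hc).1, (hQ hc).2]
        · exact ⟨_, h3, cy pc⟩
      · exact ⟨_, h2, by simpa [h1] using cx 1 pc⟩
    · exact ⟨_, h1, by simpa using cy (cx 1 pc)⟩
  have p7 : ∀ t, P 0 0 0 0 t := fun t => by
    by_cases t0 : t = 0
    · exact ⟨1, one_mem _, rfl, rfl, rfl, rfl, t0.symm⟩
    obtain ⟨p, hp, -⟩ := H14.Oc.T0_fst (T := T) (Units.mk0 g g0 * (Units.mk0 t t0)⁻¹)
    have := ch p pg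
    rw [hp] at this
    simpa [g0] using this
  have p46 : ∀ α t, P 0 0 (α * T.σ t) (α * t) 0 := fun α t => by
    simpa [CharTwo.add_self_eq_zero] using add (cx α (cn (p7 t))) (p7 (T.σ α * t))
  have p4 : ∀ t, P 0 0 t 0 0 := fun t => by
    have := add (p46 (t / (s + T.σ s) * s) 1) (p46 (t / (s + T.σ s)) s)
    rw [map_one, mul_one, CharTwo.add_self_eq_zero (_ * s), ← mul_add, div_mul_cancel₀ _ s1] at this
    simpa using this
  have p6 : ∀ t, P 0 0 0 t 0 := fun t => by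
    simpa [CharTwo.add_self_eq_zero] using add (p46 t 1) (p4 t)
  intro q hq
  obtain ⟨d, hd, e1, e2, e3, e4, e5⟩ :=
    add (add (add (add (cn (p7 q.a1)) (cn (p6 q.b2))) (p4 q.b4)) (p6 q.b6)) (p7 q.a7)
  refine (mul_mem_cancel_left hd).1 (hV ?_)
  simp_all [(hQ hd).1, (hQ hd).2, CharTwo.add_self_eq_zero]

variable {G : Type*} [Group G] [Finite G] (A : AD T G)

theorem qq : A.im (sQ T) ⊓ Cm (A.im (sQ T)) (A.im (sZ T)) = A.im (sV T) := by
  refine le_antisymm ?_ ?_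
  · rintro _ ⟨⟨c, hc, rfl⟩, h⟩
    refine (ι_mem_im A).2 (mem_V hc fun q hq => ?_)
    have := inv_mem (h.2 _ ((ι_mem_im A).2 hq))
    rwa [commutatorElement_inv, ι_comm, ι_mem_im] at this
  · rintro _ ⟨c, hc, rfl⟩
    refine ⟨(ι_mem_im A).2 (H14.Oc.V_le_Q hc), H14.Oc.nor A.toCS _ (by simp) (A.ι_mem c), ?_⟩
    rintro _ ⟨q, hq, rfl⟩
    rw [← commutatorElement_inv, ι_comm]
    exact inv_mem ((ι_mem_im A).2 (cm_VQ hc hq))

theorem cCV [Finite K] : A.C ⊓ Cs (A.im (sV T)) = A.im (sR T) := by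
  refine le_antisymm ?_ (le_inf (im_le_C A _) (im_cs A fun c hc d hd => (cm_RV hc hd).symm))
  rintro g ⟨hg, h⟩
  obtain ⟨c, hc, rfl⟩ := (H19.ParTY.c6 A.toCS (H14.Oc.bc _) g hg).1
    (mem_Cs.1 h _ ((ι_mem_im A).2 (by simp))).symm
  have k := (ι_mem_cs A).1 h
  have e1 := congrArg Co.a6 (k (x5 T 1) (by simp))
  have e2 := congrArg Co.a5 (k (x2 T 1) (by simp))
  have e3 : c.b8 = 0 := by simp at e1; grind
  have e4 : c.a8 = 0 := by simp [e3] at e2; grind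
  exact (ι_mem_im A).2 (mem_R ⟨e3, e4⟩ fun v hv => (k v hv).symm)

theorem cQR {s : K} (hs : T.σ s ≠ s) : A.im (sQ T) ⊓ Cs (A.im (sR T)) = A.im (sV T) := by
  refine le_antisymm ?_ (le_inf (im_mono A H14.Oc.V_le_Q) (im_cs A fun c hc d hd => cm_RV hd hc))
  rintro _ ⟨⟨c, hc, rfl⟩, h⟩
  have k := (ι_mem_cs A).1 h
  have r := mem_R hc fun v hv => (k v (by simp_all)).symm
  have e1 := congrArg Co.a4 (k (y4 T 1) (by simp))
  have e2 := congrArg Co.a4 (k (y4 T s) (by simp))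
  simp only [mem_sR] at r
  have := fix0 (b := c.b4) hs (by simp [r] at e1; grind) (by simp [r] at e2; grind)
  exact (ι_mem_im A).2 (by simp_all)

theorem Q_le_Bo : A.im (sQ T) ≤ Bo A.toCS := by rintro _ ⟨c, -, rfl⟩; exact ι_Bo _ c

theorem cCQ : A.C ⊓ Cm A.C (A.im (sQ T)) = A.im (sQ T) := by
  have nQ := H14.Oc.norQ A.toCS
  refine le_antisymm ?_ (le_inf (im_le_C A _) fun g hg =>
    ⟨le_normalizer hg, fun y hy => comm_mem_right (nQ hy) hg⟩)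
  rintro g ⟨hg, -, h⟩
  rcases bruhat' A.toCS hg with ⟨c, p, rfl⟩ | ⟨b, hb, u, hu, rfl⟩
  · obtain ⟨q, hq, u, hu, rfl⟩ := split c
    have h1 := mul_mem (inv_mem (h_Bo _ p)) (mul_mem (mul_mem (inv_mem (mul_mem (ι_Bo _ (q * u))
      (h_Bo _ p))) (Q_le_Bo A (h _ A.n8_mem))) (ι_Bo _ q.nu8))
    rw [← A.n8_conj q hq, ← A.n8_h0] at h1
    have : u⁻¹ = 1 := nun A.toCS (inv_mem hu) (by
      convert h1 using 1
      simp only [commutatorElement_def, map_mul, map_inv, mul_inv_rev, n8_inv, mul_assoc, n8_n8,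
        mul_inv_cancel_left, inv_mul_cancel_left])
    obtain ⟨d, hd, e⟩ := h _ (A.ι_mem (y8 T 1))
    rw [commutatorElement_def, H14.Oc.cj_B, ← map_inv, ← map_mul, ι_inj] at e
    have e2 := hd.1
    rw [e, Co.mul_b8, H14.Oc.cj_b8] at e2
    obtain rfl : p = 1 := H19.ParTY.eq_one_snd p (by simp at e2; grind)
    rw [inv_eq_one.1 this, mul_one, map_one, mul_one]
    exact (ι_mem_im A).2 hq
  · have h1 := mul_mem (mul_mem (mul_mem (inv_mem hb) (Q_le_Bo A (h _ (A.ι_mem (x8 T 1)))))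
      (ι_Bo _ (x8 T 1))) hb
    have : u * x8 T 1 * u⁻¹ = 1 := nun A.toCS (mul_mem (mul_mem hu (by simp)) (inv_mem hu)) (by
      convert h1 using 1
      simp only [commutatorElement_def, map_mul, map_inv, mul_inv_rev, n8_inv, mul_assoc, n8_n8,
        mul_inv_cancel_left, inv_mul_cancel_left, inv_mul_cancel, mul_one])
    simpa using congrArg Co.a8 (conj_eq_one_iff.1 this)

theorem cVZ [Finite K] : A.C ⊓ Cm (A.im (sV T)) (A.im (sZ T)) = A.im (sQ T) := by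
  refine le_antisymm ?_ (le_inf (im_le_C A _) ?_)
  · rintro g ⟨hg, -, h⟩
    have k : ∀ v ∈ sV T, ∃ t, g * A.ι v = A.ι (x4 T t * v) * g := fun v hv => by
      obtain ⟨z, hz, e⟩ := h _ ((ι_mem_im A).2 hv)
      exact ⟨z.a4, by rw [← eq_x4 hz, map_mul, e, commutatorElement_def]; group⟩
    obtain ⟨t, e⟩ := k (x6 T 1) (by simp)
    obtain ⟨s, p, rfl⟩ := H19.ParTY.nW A.toCS (H14.Oc.bc _) g hg (x6 T 1) (by simp) (by simp)
      (by rw [e, mul_inv_cancel_right]; exact (ι_mem_im A).2 (by simp))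
    rw [H19.ParTY.B_mul, ← mul_assoc, mul_left_inj, ← map_mul, ι_inj] at e
    have e1 := congrArg Co.a6 e
    obtain rfl : p = 1 := H19.ParTY.eq_one_6 p (by simp at e1; grind)
    obtain ⟨t1, e1⟩ := k (x5 T 1) (by simp)
    obtain ⟨t2, e2⟩ := k (x2 T 1) (by simp)
    rw [map_one, mul_one] at *
    rw [← map_mul, ← map_mul, ι_inj] at e1 e2
    have e3 := congrArg Co.a6 e1
    have e4 := congrArg Co.a5 e2
    have e5 : s.b8 = 0 := by simp at e3; grind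
    exact (ι_mem_im A).2 ⟨e5, by simp [e5] at e4; grind⟩
  · rintro _ ⟨c, hc, rfl⟩
    refine ⟨H14.Oc.nor A.toCS _ (by simp) (A.ι_mem c), ?_⟩
    rintro _ ⟨v, hv, rfl⟩
    rw [ι_comm]
    exact (ι_mem_im A).2 (cm_VQ hv hc)

theorem irr [Finite K] {s : K} (hs : T.σ s ≠ s) (J : Subgroup G) (h1 : A.im (sV T) ≤ J)
    (h2 : J ≤ A.im (sQ T)) (h3 : A.C ≤ Ns J) : J ≤ A.im (sR T) ∨ J = A.im (sQ T) := by
  refine or_iff_not_imp_left.2 fun h => le_antisymm h2 ?_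
  obtain ⟨g, hg, hR⟩ := not_forall₂.1 h
  obtain ⟨c, -, rfl⟩ := h2 hg
  have hQ : J.comap A.ι ≤ sQ T := fun d hd => (ι_mem_im A).1 (h2 hd)
  refine map_le_iff_le_comap.2 (irr0 hs (map_le_iff_le_comap.1 h1) hQ (fun u d hd => ?_)
    (fun p d hd => ?_) (fun d hd => ?_) hg fun e => hR ((ι_mem_im A).2 e))
  · simpa [mem_comap] using cj_mem (h3 (A.ι_mem u)) hd
  · exact mem_comap.2 (A.h0_conj p d ▸ cj_mem (h3 (A.h0_mem p)) hd)
  · exact mem_comap.2 (A.n8_conj d (hQ hd) ▸ ns8 A (h3 A.n8_mem) hd)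

theorem genC [Finite K] : A.C = A.im (sQ T) ⊔ (A.im (sU8 T) ⊔ zpowers A.n8) := by
  refine le_antisymm ((H14.Oc.gen A.toCS).le.trans ((closure_le _).2 ?_))
    (sup_le (im_le_C A _) (sup_le (im_le_C A _) (zpowers_le.2 A.n8_mem)))
  rintro _ (⟨c, rfl⟩ | rfl)
  · obtain ⟨q, hq, u, hu, rfl⟩ := split c
    rw [map_mul]
    exact mul_mem_sup ((ι_mem_im A).2 hq) (mem_sup_left ((ι_mem_im A).2 hu))
  · exact mem_sup_right (mem_sup_right (mem_zpowers _))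

theorem n8m [Finite K] (N : Subgroup G) (h1 : A.im (sZ8 T) ≤ N) (h2 : A.im (sU8 T) ≤ Ns N)
    (h3 : A.n8 ∈ Ns N) : TT A 4 ≤ N ∧ A.n8 ∈ N := by
  obtain ⟨u', hu', u'', hu'', p, e⟩ := A.rank8 (x8 T 1) (by simp)
    fun h => by simpa using congrArg Co.a8 h
  have xx : A.ι (x8 T 1) * A.ι (x8 T 1) = 1 := by
    rw [← map_mul, ← x8_add, CharTwo.add_self_eq_zero, x8_zero, map_one]
  have sq : A.ι u' * A.h0 p * A.n8 * A.ι u'' * (A.ι u' * A.h0 p * A.n8 * A.ι u'') = 1 := by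
    rw [← e]; simp only [mul_assoc, n8_n8]; rw [← mul_assoc (A.ι _), xx, one_mul, A.n8_sq]
  have v1 : u'' * u' = 1 := nun A.toCS (mul_mem hu'' hu') (by
    have : A.n8 * A.ι (u'' * u') * A.n8 =
        (A.ι u' * A.h0 p)⁻¹ * (A.ι u'')⁻¹ * (A.n8 * A.h0 p * A.n8)⁻¹ := by
      rw [eq_mul_inv_iff_mul_eq, eq_mul_inv_iff_mul_eq, eq_inv_iff_mul_eq_one,
        mul_eq_one_comm, ← sq, map_mul]
      simp only [mul_assoc, n8_n8]
    rw [this, A.n8_h0]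
    exact mul_mem (mul_mem (inv_mem (mul_mem (ι_Bo _ _) (h_Bo _ _))) (inv_mem (ι_Bo _ _)))
      (inv_mem (inv_mem (h_Bo _ _))))
  have k : ∀ r : T0 T, A.h0 r * A.h0 p * A.h0 r * A.n8 ∈ N := fun r => by
    have a := ns8 A h3 (h1 ((ι_mem_im A).2 (show dg T r⁻¹.1.1 r⁻¹.1.2 (x8 T 1) ∈ sZ8 T by simp)))
    have b := cj_mem' (h2 ((ι_mem_im A).2 (show dg T r.1.1 r.1.2 u' ∈ sU8 T by simp_all))) a
    rw [← A.h0_conj, ← A.h0_conj, map_inv, inv_inv] at b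
    have f : A.n8 * ((A.h0 r)⁻¹ * A.ι (x8 T 1) * A.h0 r) * A.n8 =
        A.h0 r * (A.n8 * A.ι (x8 T 1) * A.n8) * (A.h0 r)⁻¹ := by
      have e1 : A.n8 * (A.h0 r)⁻¹ = A.h0 r * A.n8 := by rw [← map_inv, H14.Oc.n_h, inv_inv]
      calc _ = A.n8 * (A.h0 r)⁻¹ * A.ι (x8 T 1) * (A.h0 r * A.n8) := by simp only [mul_assoc]
        _ = A.h0 r * A.n8 * A.ι (x8 T 1) * (A.n8 * (A.h0 r)⁻¹) := by rw [e1]
        _ = _ := by simp only [mul_assoc]
    rw [f, e, eq_inv_of_mul_eq_one_left v1, map_inv] at b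
    convert b using 1
    rw [mul_assoc _ (A.h0 r) A.n8, ← n8_n8 A (A.h0 r * A.n8), ← mul_assoc A.n8 (A.h0 r), A.n8_h0]
    group
  have k2 : ∀ r : T0 T, A.h0 r ∈ N := fun r => by
    obtain ⟨r, rfl⟩ := H14.Oc.sq_T0_surj r
    have := mul_mem (k r) (inv_mem (k 1))
    rwa [← map_mul, ← map_mul, mul_right_comm, map_mul, map_one, one_mul, mul_one, mul_assoc (A.h0 _),
      mul_inv_cancel_right] at this
  refine ⟨tt4 A ▸ by rintro _ ⟨r, rfl⟩; exact k2 r, ?_⟩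
  exact (mul_mem_cancel_left (mul_mem (mul_mem (k2 1) (k2 p)) (k2 1))).1 (k 1)

theorem perf [Fintype K] (hK : 8 ≤ Fintype.card K) : ⁅A.C, A.C⁆ = A.C := by
  obtain ⟨s, hs⟩ := exists_s (T := T) hK
  obtain ⟨h, hh, h1⟩ := exT A hK 4
  have hC : h ∈ A.C := by
    obtain ⟨p, rfl⟩ := (tt4 A).le hh
    exact A.h0_mem p
  have le : ⁅A.C, A.C⁆ ≤ A.C := commutator_le_self _
  have nr : A.C ≤ Ns ⁅A.C, A.C⁆ := fun g hg => mem_ns_of fun y hy => by
    rw [cj_eq]; exact mul_mem (commutator_mem_commutator hg (le hy)) hy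
  have k : ∀ i, (∀ c ∈ sU T i, c ∈ sU T 4 → c = 1) → A.im (sU T i) ≤ ⁅A.C, A.C⁆ := fun i hi y hy => by
    obtain ⟨y', hy', rfl⟩ := surj_of_fpf (hU A i (TT_le_H A 4 hh)) (eq_bot_iff.2 (by
      rintro _ ⟨⟨c, hc, rfl⟩, e⟩
      rw [hi c hc ((ι_mem_im A).1 ((cU A 4 h hh h1).le ⟨⟨c, rfl⟩, e⟩)), map_one]
      exact one_mem _)) y hy
    exact commutator_mem_commutator (im_le_C A _ hy') hC
  have k1 : A.ι (x1 T 1) ∈ ⁅A.C, A.C⁆ :=
    k 1 triv1 ((ι_mem_im A).2 (by simp [sU]))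
  have k8 : A.im (sU8 T) ≤ ⁅A.C, A.C⁆ := k 8 triv8
  have kV := H14.Oc.nsub A.toCS le nr fun e => one_ne_zero ((ι_mem_im A).1 (e k1)).1
  have kQ := (irr A hs _ (le_inf kV (im_mono A H14.Oc.V_le_Q)) inf_le_right fun g hg =>
    ns_inf (nr hg) (H14.Oc.norQ _ hg)).resolve_left fun e =>
      one_ne_zero ((ι_mem_im A).1 (e ⟨k1, (ι_mem_im A).2 ⟨rfl, rfl⟩⟩)).1
  refine le_antisymm le ((genC A).le.trans (sup_le (kQ.ge.trans inf_le_left) (sup_le k8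
    (zpowers_le.2 (n8m A _ ((im_mono A Z8_le).trans k8)
      ((im_le_C A _).trans nr) (nr A.n8_mem)).2))))

theorem idx2 {s : K} (hs : T.σ s ≠ s) (U₀ : Subgroup G) (_ : U₀ ≤ A.S) (h2 : U₀.relIndex A.S ≤ 2) :
    A.S ⊓ Cs U₀ ≤ A.im (sZ T) := by
  have s0 : s ≠ 0 := by rintro rfl; simp at hs
  have s1 : 1 + s ≠ 0 := fun e => hs (by rw [show s = 1 by grind, map_one])
  have tri : ∀ c d, A.ι c ∈ U₀ ∨ A.ι d ∈ U₀ ∨ A.ι (c * d) ∈ U₀ := fun c d => by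
    have : U₀.relIndex A.S ≠ 0 := FiniteIndex.index_ne_zero
    rcases (by omega : U₀.relIndex A.S = 1 ∨ U₀.relIndex A.S = 2) with e | e
    · exact .inl (relIndex_eq_one.1 e ⟨c, rfl⟩)
    · have := mul_mem_iff_of_index_two e (a := ⟨_, c, rfl⟩) (b := ⟨_, d, rfl⟩)
      simp only [mem_subgroupOf, coe_mul, ← map_mul] at this
      tauto
  rintro _ ⟨⟨c, rfl⟩, h⟩
  have k : ∀ f : K → Co T, ∃ d, (d = f 1 ∨ d = f s ∨ d = f 1 * f s) ∧ d * c = c * d := fun f => by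
    have cm : ∀ d, A.ι d ∈ U₀ → d * c = c * d := fun d hd =>
      A.inj (by rw [map_mul, map_mul]; exact mem_Cs.1 h _ hd)
    rcases tri (f 1) (f s) with e | e | e
    exacts [⟨_, .inl rfl, cm _ e⟩, ⟨_, .inr (.inl rfl), cm _ e⟩, ⟨_, .inr (.inr rfl), cm _ e⟩]
  have k' : ∀ f : K → Co T, (∀ a b, f (a + b) = f a * f b) → ∃ t, t ≠ 0 ∧ f t * c = c * f t :=
    fun f hf => by
      obtain ⟨d, rfl | rfl | rfl, e⟩ := k f
      exacts [⟨_, one_ne_zero, e⟩, ⟨_, s0, e⟩, ⟨_, s1, by rwa [hf]⟩]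
  obtain ⟨t6, n6, e6⟩ := k' _ x6_add
  obtain ⟨t8, n8, e8⟩ := k' _ x8_add
  obtain ⟨t2, n2, e2⟩ := k' _ x2_add
  obtain ⟨t1, n1, e1⟩ := k' _ x1_add
  obtain ⟨b, a, nb, eb⟩ : ∃ b a, b ≠ 0 ∧ uu T b a * c = c * uu T b a := by
    obtain ⟨d, rfl | rfl | rfl, e⟩ := k (y8 T)
    exacts [⟨_, _, one_ne_zero, e⟩, ⟨_, _, s0, e⟩, ⟨1 + s, T.σ s, s1, by
      rwa [show y8 T 1 * y8 T s = uu T (1 + s) (T.σ s) by ext <;> simp [uu]] at e⟩]
  have a1 : c.a1 = 0 := by have := congrArg Co.a4 e6; simp at this; grind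
  have b2 : c.b2 = 0 := by have := congrArg Co.a7 e8; simp [a1] at this; grind
  have a2 : c.a2 = 0 := by have := congrArg Co.a5 e8; simp [a1] at this; grind
  have a3 : c.a3 = 0 := by have := congrArg Co.a6 e8; simp [a1, b2, a2] at this; grind
  have b8 : c.b8 = 0 := by have := congrArg Co.a3 e2; simp at this; grind
  have a8 : c.a8 = 0 := by have := congrArg Co.a5 e2; simp [b8] at this; grind
  have a7 : c.a7 = 0 := by have := congrArg Co.a4 e2; simp [b8, a8] at this; grind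
  have b6 : c.b6 = 0 := by have := congrArg Co.a3 e1; simp [b8, a8, a7, a3] at this; grind
  have b4 : c.b4 = 0 := by have := congrArg Co.a2 e1; simp [b8, a8, b6] at this; grind
  have a6 : c.a6 = 0 := by have := congrArg Co.a4 e1; simp [b8, a8, a7, b6, b4] at this; grind
  have a5 : c.a5 = 0 := by
    have := congrArg Co.a6 eb; simp [uu, a1, b2, a2, a3, b8, a8, a7, b6, b4] at this; grind
  exact (ι_mem_im A).2 ⟨a1, b2, a2, a3, b4, a5, b6, a6, a7, b8, a8⟩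

theorem genL [Finite K] :
    A.G0 = A.im (sU1 T) ⊔ cjs A.n1 (A.im (sU1 T)) ⊔ (A.im (sU8 T) ⊔ cjs A.n8 (A.im (sU8 T))) := by
  have cj : ∀ {g} {X : Subgroup G}, g ∈ A.G0 → X ≤ A.G0 → cjs g X ≤ A.G0 := fun hg hX => by
    rintro _ ⟨x, hx, rfl⟩; exact mul_mem (mul_mem hg (hX hx)) (inv_mem hg)
  refine le_antisymm ?_ (sup_le (sup_le (im_le A _) (cj (n1_mem A) (im_le A _)))
    (sup_le (im_le A _) (cj (n8_mem A) (im_le A _))))
  obtain ⟨h4, h8⟩ := n8m A (A.im (sU8 T) ⊔ cjs A.n8 (A.im (sU8 T)))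
    ((im_mono A Z8_le).trans le_sup_left) (le_sup_left.trans le_normalizer)
    (ns_of_cjs_eq (by rw [cjs_sup, cjs88, sup_comm]))
  set N := A.im (sU1 T) ⊔ cjs A.n1 (A.im (sU1 T)) ⊔ (A.im (sU8 T) ⊔ cjs A.n8 (A.im (sU8 T)))
  have u1 : A.im (sU T 1) ≤ N := le_sup_left.trans le_sup_left
  have u8 : A.im (sU T 8) ≤ N := le_sup_left.trans le_sup_right
  have x : ∀ c, A.ι (x1 T c) ∈ N := fun c => u1 ((ι_mem_im A).2 (by simp [sU]))
  have x' : ∀ c, A.n1 * A.ι (x1 T c) * A.n1 ∈ N := fun c =>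
    mem_sup_left (mem_sup_right (cj1_mem A ((ι_mem_im A).2 (by simp))))
  have m1 : A.n1 ∈ N := by rw [n1_eq A]; exact mul_mem (mul_mem (x _) (x' _)) (x _)
  have m8 : A.n8 ∈ N := mem_sup_right h8
  have c1 : ∀ i, 2 ≤ i → i ≤ 8 → A.im (sU T i) ≤ N → A.im (sU T (10 - i)) ≤ N := fun i a b h =>
    uu1 A i a b ▸ (cjs_mono h).trans (cjs_eq (le_normalizer m1)).le
  have c8 : ∀ i, 1 ≤ i → i ≤ 7 → A.im (sU T i) ≤ N → A.im (sU T (8 - i)) ≤ N := fun i a b h =>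
    uu8 A i a b ▸ (cjs_mono h).trans (cjs_eq (le_normalizer m8)).le
  have u7 : A.im (sU T 7) ≤ N := c8 1 (by norm_num) (by norm_num) u1
  have u3 : A.im (sU T 3) ≤ N := c1 7 (by norm_num) (by norm_num) u7
  have u5 : A.im (sU T 5) ≤ N := c8 3 (by norm_num) (by norm_num) u3
  have u2 : A.im (sU T 2) ≤ N := c1 8 (by norm_num) (by norm_num) u8
  have u6 : A.im (sU T 6) ≤ N := c8 2 (by norm_num) (by norm_num) u2
  have u4 : A.im (sU T 4) ≤ N := c1 6 (by norm_num) (by norm_num) u6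
  refine (closure_le _).2 ?_
  rintro _ ((⟨c, rfl⟩ | ⟨p, rfl⟩) | rfl | rfl)
  · rw [nf c]
    simp only [map_mul]
    repeat' apply mul_mem
    exacts [x _, u2 ((ι_mem_im A).2 (by simp [sU])), u2 ((ι_mem_im A).2 (by simp [sU])),
      u3 ((ι_mem_im A).2 (by simp [sU])), u4 ((ι_mem_im A).2 (by simp [sU])),
      u4 ((ι_mem_im A).2 (by simp [sU])), u5 ((ι_mem_im A).2 (by simp [sU])),
      u6 ((ι_mem_im A).2 (by simp [sU])), u6 ((ι_mem_im A).2 (by simp [sU])),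
      u7 ((ι_mem_im A).2 (by simp [sU])), u8 ((ι_mem_im A).2 (by simp [sU])),
      u8 ((ι_mem_im A).2 (by simp [sU]))]
  · have a := p.1.ne_zero
    have b := p.2.ne_zero
    have c0 : chi4 T p.1 p.2 ≠ 0 := by simp [chi4]
    let c := Units.mk0 _ c0
    have m : p * (c ^ 2, c⁻¹)⁻¹ ∈ T0 T := by
      have := sig_ne (T := T) c0
      have e : (c : K) = chi4 T p.1 p.2 := rfl
      rw [mem_T0]
      calc _ = chi4 T p.1 p.2 * (c : K)⁻¹ := by
            simp [chi4, T.sq]; rw [e]; field_simp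
        _ = 1 := mul_inv_cancel₀ c0
    have := mul_mem (mem_sup_right (h4 (h_mem_TT A (wt4_iff.2 m))) : _ ∈ N)
      (hn A c ▸ mul_mem (mul_mem (mul_mem (x _) (x' _)) (x _)) m1)
    rwa [← map_mul, inv_mul_cancel_right] at this
  · exact m1
  · exact m8

theorem jobLB : JobLB.{u, v} := by
  intro _ K _ _ _ T G _ _ A _ hK
  obtain ⟨s, hs⟩ := exists_s (T := T) hK
  refine ⟨H14.Oc.bc _, H19.ParTY.ty (H14.Oc.bc _),
    H14.Oc.S_two.of_surjective _ A.ι.rangeRestrict_surjective, ?_, ?_, ?_, hN A, hU A, hC A, mem_TT A,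
    tt4 A, ttU A, exT A hK, cU A, cT A hK, tt1 A, tt8 A, tt11 A, tt88 A, uu1 A, uu8 A, qq A, cCV A,
    cQR A hs, cCQ A, cVZ A, irr A hs, perf A hK, genC A, n8m A, idx2 A hs, hn A, genL A⟩
  · rw [← Nat.card_congr (MonoidHom.ofInjective A.inj).toEquiv, H14.Oc.card_Co,
      Nat.card_eq_fintype_card]
  · rw [card_map_of_injective A.inj, ← Nat.card_eq_fintype_card]
    exact Nat.card_congr ⟨fun c => c.1.a4, fun t => ⟨x4 T t, by simp⟩,
      fun c => Subtype.ext (eq_x4 c.2).symm, fun _ => rfl⟩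
  · refine Odd.of_dvd_nat ?_ (card_range_dvd A.h)
    obtain ⟨n, n0, e⟩ := H14.Oc.card_two (K := K)
    have : Odd (Nat.card Kˣ) := by
      rw [Nat.card_units, e]
      exact Nat.Even.sub_odd Nat.one_le_two_pow (Nat.even_pow.2 ⟨even_two, n0.ne'⟩) odd_one
    rw [Nat.card_prod]
    exact this.mul this

end H71.SRLB
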